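import Cfsg.Agent.DihBGroup.Ring
import Mathlib.NumberTheory.LSeries.PrimesInAP
import Mathlib.Data.Nat.Choose.Dvd
import Mathlib.Algebra.Ring.Subring.Basic

/-!
The commutative algebra of invariant functions: coordinates and powers.
-/

set_option autoImplicit false
set_option linter.unusedSectionVars false

namespace Cfsg.Agent.DihBGroup

open Finset DihedralGroup

variable {m : ℕ} [NeZero m]

theorem mem_filter_inj {c : ZMod m} (hc : IsUnit c) (i : ZMod m) (F : ZMod m → ℤ) :
    ∑ j with c * j = c * i, F j = F i := by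
  rw [Finset.sum_filter]; simp [hc.mul_right_inj]

namespace SR

variable (S : SR m)

/-- An element of the algebra. -/
abbrev El := ↥S.alg

noncomputable instance : CommRing S.El :=
  { (inferInstance : Ring S.El) with
    mul_comm := by
      rintro ⟨_, f, hf, rfl⟩ ⟨_, g, hg, rfl⟩
      refine Subtype.ext ?_
      show mat f * mat g = mat g * mat f
      rw [mat_mul, mat_mul, S.conv_comm' hf hg] }

variable {S}

/-- The rotation part. -/
noncomputable def pa (u : S.El) : GR m := (u : M2 m) 0 0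

/-- The reflection part. -/
noncomputable def pb (u : S.El) : GR m := (u : M2 m) 1 0

/-- The product of the reflection part with its reversal. -/
noncomputable def pn (u : S.El) : GR m := sg (pb u) * pb u

/-- The function of an element. -/
noncomputable def co (u : S.El) : DihedralGroup m → ℤ
  | r i => cf (pa u) i
  | sr i => cf (pb u) i

/-- The element of a function. -/
noncomputable def el (f : DihedralGroup m → ℤ) (hf : S.Inv f) : S.El := ⟨mat f, f, hf, rfl⟩

theorem co_el (f : DihedralGroup m → ℤ) (hf : S.Inv f) : co (el f hf) = f := by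
  funext h
  rcases h with i | i <;> simp [co, pa, pb, el, mat_entry]

theorem exists_el (u : S.El) : ∃ f, ∃ hf : S.Inv f, el f hf = u := by
  obtain ⟨u, f, hf, rfl⟩ := u
  exact ⟨f, hf, rfl⟩

theorem inv_co (u : S.El) : S.Inv (co u) := by
  obtain ⟨f, hf, rfl⟩ := exists_el u
  rwa [co_el]

theorem co_ext {u v : S.El} (h : ∀ x, co u x = co v x) : u = v := by
  obtain ⟨f, hf, rfl⟩ := exists_el u
  obtain ⟨g, hg, rfl⟩ := exists_el v
  rw [co_el, co_el] at h
  obtain rfl : f = g := funext h
  rfl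

theorem co_mul (f g : DihedralGroup m → ℤ) (hf : S.Inv f) (hg : S.Inv g) :
    el f hf * el g hg = el (conv f g) (S.closed hf hg) := Subtype.ext (mat_mul f g)

theorem sg_pa (u : S.El) : sg (pa u) = pa u := by
  refine gr_ext fun i => ?_
  rw [cf_sg]
  have := S.symm_fun (inv_co u) (r i)
  rwa [DihedralGroup.inv_r] at this

theorem coe_eq (u : S.El) : (u : M2 m) = !![pa u, sg (pb u); pb u, pa u] := by
  obtain ⟨f, hf, rfl⟩ := exists_el u
  have h := sg_pa (el f hf)
  simp only [pa, pb, el, mat_entry, Matrix.cons_val', Matrix.cons_val_zero, Matrix.cons_val_one,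
    Matrix.empty_val', Matrix.cons_val_fin_one, Matrix.of_apply] at h ⊢
  rw [h]

theorem pa_add (u v : S.El) : pa (u + v) = pa u + pa v := rfl
theorem pa_sub (u v : S.El) : pa (u - v) = pa u - pa v := rfl
theorem pb_add (u v : S.El) : pb (u + v) = pb u + pb v := rfl
theorem pb_sub (u v : S.El) : pb (u - v) = pb u - pb v := rfl
theorem pa_zero : pa (0 : S.El) = 0 := rfl
theorem pb_zero : pb (0 : S.El) = 0 := rfl
theorem pa_one : pa (1 : S.El) = 1 := rfl
theorem pb_one : pb (1 : S.El) = 0 := rfl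

theorem pa_mul (u v : S.El) : pa (u * v) = pa u * pa v + sg (pb u) * pb v := by
  show ((u : M2 m) * (v : M2 m)) 0 0 = _
  rw [coe_eq u, coe_eq v]
  simp [Matrix.mul_apply, Fin.sum_univ_two]

theorem pb_mul (u v : S.El) : pb (u * v) = pb u * pa v + pa u * pb v := by
  show ((u : M2 m) * (v : M2 m)) 1 0 = _
  rw [coe_eq u, coe_eq v]
  simp [Matrix.mul_apply, Fin.sum_univ_two]

theorem pa_sq (u : S.El) : pa (u * u) = pa u * pa u + pn u := pa_mul u u

theorem pa_natCast_mul (n : ℕ) (u : S.El) : pa ((n : S.El) * u) = (n : GR m) * pa u := by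
  induction n with
  | zero => simp [pa_zero]
  | succ k ih => rw [Nat.cast_succ, add_mul, one_mul, pa_add, ih, Nat.cast_succ, add_mul, one_mul]

theorem pb_natCast_mul (n : ℕ) (u : S.El) : pb ((n : S.El) * u) = (n : GR m) * pb u := by
  induction n with
  | zero => simp [pb_zero]
  | succ k ih => rw [Nat.cast_succ, add_mul, one_mul, pb_add, ih, Nat.cast_succ, add_mul, one_mul]

theorem co_sub (u v : S.El) (x : DihedralGroup m) : co (u - v) x = co u x - co v x := by
  rcases x with i | i <;> simp [co, pa_sub, pb_sub]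

theorem co_natCast_mul (n : ℕ) (u : S.El) (x : DihedralGroup m) :
    co ((n : S.El) * u) x = n * co u x := by
  rcases x with i | i <;> simp [co, pa_natCast_mul, pb_natCast_mul, cf_natCast_mul]

theorem co_natCast (n : ℕ) (x : DihedralGroup m) :
    co (n : S.El) x = if x = 1 then (n : ℤ) else 0 := by
  have e : (n : S.El) = (n : S.El) * 1 := (mul_one _).symm
  have ea : pa (n : S.El) = n := by rw [e, pa_natCast_mul, pa_one, mul_one]
  have eb : pb (n : S.El) = 0 := by rw [e, pb_natCast_mul, pb_one, mul_zero]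
  rcases x with i | i <;> rw [← DihedralGroup.r_zero]
  · simp [co, ea, cf_natCast, -DihedralGroup.r_zero]
  · simp [co, eb, -DihedralGroup.r_zero]

/-- Divisibility is detected on the rotations. -/
theorem dvd_of_pa {n : ℕ} {u : S.El} (h : (n : GR m) ∣ pa u) : (n : S.El) ∣ u := by
  rw [natCast_dvd_iff] at h
  have hd : ∀ x, (n : ℤ) ∣ co u x := fun x => by
    obtain ⟨i, hi⟩ := S.exists_rot x
    rw [inv_co u _ _ hi]
    exact h i
  have hinv : S.Inv fun x => co u x / (n : ℤ) := fun a b hab =>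
    congrArg (fun t : ℤ => t / (n : ℤ)) (inv_co u a b hab)
  refine ⟨el _ hinv, co_ext fun x => ?_⟩
  rw [co_natCast_mul, co_el, Int.mul_ediv_cancel' (hd x)]

theorem dvd_pa {n : ℕ} {u : S.El} (h : (n : S.El) ∣ u) : (n : GR m) ∣ pa u := by
  obtain ⟨v, rfl⟩ := h
  exact ⟨pa v, pa_natCast_mul n v⟩

theorem dvd_co {n : ℕ} {u : S.El} (h : (n : S.El) ∣ u) (x : DihedralGroup m) : (n : ℤ) ∣ co u x := by
  obtain ⟨v, rfl⟩ := h
  exact ⟨co v x, co_natCast_mul n v x⟩

theorem dvd_pa_sub {n : ℕ} {u v : S.El} (h : (n : S.El) ∣ u - v) : (n : GR m) ∣ pa u - pa v := by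
  rw [← pa_sub]; exact dvd_pa h

/-- The total weight. -/
noncomputable def wt : S.El →+* ℤ where
  toFun u := eps (pa u) + eps (pb u)
  map_one' := by simp [pa_one, pb_one]
  map_mul' u v := by
    simp only [pa_mul, pb_mul, map_add, map_mul, eps_pw]
    ring
  map_zero' := by simp [pa_zero, pb_zero]
  map_add' u v := by simp only [pa_add, pb_add, map_add]; ring

theorem wt_def (u : S.El) : wt u = eps (pa u) + eps (pb u) := rfl

/-- The rotation part of a power. -/
theorem pa_pow (u : S.El) (n : ℕ) : pa (u ^ n) =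
    ∑ i ∈ range (n + 1), (if Even i then pn u ^ (i / 2) else 0) * pa u ^ (n - i) * (n.choose i : GR m) := by
  classical
  set E : M2 m := !![0, sg (pb u); pb u, 0] with hE
  have hu : (u : M2 m) = E + pa u • (1 : M2 m) := by
    rw [coe_eq u, hE]; ext a b; fin_cases a <;> fin_cases b <;> simp
  have hE2 : E * E = pn u • (1 : M2 m) := by
    ext a b
    fin_cases a <;> fin_cases b <;>
      simp [hE, Matrix.mul_apply, Fin.sum_univ_two, pn, mul_comm]
  have hE00 : ∀ i, (E ^ i) 0 0 = if Even i then pn u ^ (i / 2) else 0 := by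
    intro i
    rcases Nat.even_or_odd i with ⟨j, rfl⟩ | ⟨j, rfl⟩
    · rw [if_pos ⟨j, rfl⟩, ← two_mul, pow_mul, sq, hE2, smul_pow, one_pow]
      simp
    · rw [if_neg (Nat.not_even_two_mul_add_one j), pow_succ, pow_mul, sq, hE2, smul_pow, one_pow,
        smul_mul_assoc, one_mul]
      simp [hE]
  show ((u : M2 m) ^ n) 0 0 = _
  rw [hu, ((Commute.one_right E).smul_right _).add_pow, Matrix.sum_apply]
  refine Finset.sum_congr rfl fun i _ => ?_
  rw [smul_pow, one_pow, mul_smul_comm, mul_one, ← hE00 i, ← map_natCast (Matrix.scalar (Fin 2)),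
    Matrix.scalar_apply, Matrix.mul_diagonal, Matrix.smul_apply, smul_eq_mul, mul_comm (pa u ^ _)]

/-- For an odd prime the rotation part of the power is congruent to the power of the rotation part. -/
theorem dvd_pa_pow_sub {p : ℕ} (hp : p.Prime) (hp2 : p ≠ 2) (u : S.El) :
    (p : GR m) ∣ pa (u ^ p) - pa u ^ p := by
  rw [pa_pow, Finset.sum_range_succ']
  simp only [Nat.choose_zero_right, Nat.cast_one, mul_one, Even.zero, if_true, Nat.zero_div,
    pow_zero, one_mul, Nat.sub_zero, add_sub_cancel_right]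
  refine Finset.dvd_sum fun i hi => ?_
  rw [Finset.mem_range] at hi
  rcases eq_or_lt_of_le (Nat.succ_le_of_lt hi) with e | e
  · rw [if_neg]
    · simp
    · rw [show i + 1 = p from e, Nat.not_even_iff_odd]
      exact hp.odd_of_ne_two hp2
  · exact Dvd.dvd.mul_left (Nat.cast_dvd_cast (hp.dvd_choose_self (Nat.succ_ne_zero _) e)) _

theorem dvd_pa_pow_pw {p : ℕ} (hp : p.Prime) (hp2 : p ≠ 2) (u : S.El) :
    (p : GR m) ∣ pa (u ^ p) - pw (p : ZMod m) (pa u) := by
  have := dvd_add (dvd_pa_pow_sub hp hp2 u) (dvd_pow_sub_pw hp (pa u))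
  rwa [sub_add_sub_cancel] at this

/-- The multiplier theorem in congruence form. -/
theorem dvd_co_pow {q : ℕ} (hq : q.Prime) (hq2 : q ≠ 2) (hu : IsUnit (q : ZMod m)) (u : S.El)
    (i : ZMod m) : (q : ℤ) ∣ co (u ^ q) (r ((q : ZMod m) * i)) - co u (r i) := by
  have h := natCast_dvd_iff.1 (dvd_pa_pow_pw hq hq2 u) ((q : ZMod m) * i)
  rw [cf_sub, cf_pw_inj hu] at h
  exact h

theorem exists_prime_unit (m : ℕ) [NeZero m] (c : (ZMod m)ˣ) (N : ℕ) :
    ∃ q : ℕ, q.Prime ∧ N < q ∧ q ≠ 2 ∧ (q : ZMod m) = (c : ZMod m) := by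
  obtain ⟨q, hqN, hq, hqc⟩ := Nat.forall_exists_prime_gt_and_eq_mod (q := m) c.isUnit (max N 2)
  exact ⟨q, hq, lt_of_le_of_lt (le_max_left _ _) hqN,
    fun e => absurd (le_max_right N 2) (by omega), hqc⟩

/-- The multiplier theorem. -/
theorem rel_mult (c : (ZMod m)ˣ) {x y : ZMod m} (h : S.rel (r x) (r y)) :
    S.rel (r ((c : ZMod m) * x)) (r ((c : ZMod m) * y)) := by
  obtain ⟨q, hq, hqN, hq2, hqc⟩ := exists_prime_unit m c⁻¹ 1
  have hu : IsUnit (q : ZMod m) := hqc ▸ (c⁻¹).isUnit
  set u : S.El := el (S.ind (r ((c : ZMod m) * x))) (S.inv_ind _) with hu'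
  have hx := dvd_co_pow hq hq2 hu u ((c : ZMod m) * x)
  have hy := dvd_co_pow hq hq2 hu u ((c : ZMod m) * y)
  rw [hqc, ← mul_assoc, Units.inv_mul, one_mul] at hx hy
  rw [inv_co (u ^ q) _ _ h] at hx
  rw [hu', co_el, S.ind_self] at hx
  rw [hu', co_el] at hy
  by_contra hne
  rw [S.ind_of_not hne] at hy
  have := dvd_sub hy hx
  simp at this
  have h1 : (q : ℤ) ∣ 1 := by simpa [hu'] using this
  have := Int.eq_one_of_dvd_one (by positivity) h1
  have := hq.one_lt
  omega

end SR

end Cfsg.Agent.DihBGroup
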