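import Cfsg.Agent.DihBGroup.TwoPower

/-!
A rational primitive S-ring over a dihedral group has rank two.
-/

set_option autoImplicit false
set_option linter.unusedSectionVars false

namespace Cfsg.Agent.DihBGroup

open Finset DihedralGroup

variable {m : ℕ} [NeZero m]

theorem sum_dih (F : DihedralGroup m → ℤ) : ∑ x, F x = (∑ i, F (r i)) + ∑ i, F (sr i) := by
  refine (Fintype.sum_equiv
    { toFun := fun h => match h with
        | r i => Sum.inl i
        | sr i => Sum.inr i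
      invFun := Sum.elim r sr
      left_inv := by rintro (i | i) <;> rfl
      right_inv := by rintro (i | i) <;> rfl } _ (Sum.elim (fun i => F (r i)) fun i => F (sr i))
    (by rintro (i | i) <;> rfl)).trans (Fintype.sum_sum_type _)

namespace SR

variable {S : SR m}

theorem exists_sr (h : DihedralGroup m) (hh : h ≠ 1) : ∃ i, S.rel h (sr i) := by
  by_contra hno
  push Not at hno
  exact hh (S.supp_rot (S.inv_ind h) (fun i => S.ind_of_not (hno i)) (h := h)
    (by rw [S.ind_self]; norm_num))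

theorem ind_zero_one (h x : DihedralGroup m) : S.ind h x = 0 ∨ S.ind h x = 1 := by
  by_cases hx : S.rel h x
  · exact Or.inr (S.ind_of hx)
  · exact Or.inl (S.ind_of_not hx)

/-- The parameters of the class in rank three. -/
structure Par (S : SR m) (p : ℕ) (h : DihedralGroup m) (k₀ k₁ μ : ℤ) : Prop where
  e0 : k₀ = ∑ i, S.ind h (r i)
  e1 : k₁ = ∑ i, S.ind h (sr i)
  sq0 : k₀ * k₀ + k₁ * k₁ = (k₀ + k₁ - μ) + m * μ
  sq1 : 2 * (k₀ * k₁) = m * μ
  pos0 : 0 < k₀
  lt0 : k₀ < m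
  pos1 : 0 < k₁
  lt1 : k₁ < m
  pos : 0 < k₀ + k₁ - μ
  dvd0 : (p : ℤ) ∣ k₀
  sa : ∀ i, cf (pa (cl S h * cl S h)) i = μ + if i = 0 then k₀ + k₁ - μ else 0
  ez : μ = conv (S.ind h) (S.ind h) (r (gz m p))

variable {p : ℕ} (hp : p.Prime) (hpm : p ∣ m) (P : Proj m p) (hR : S.Rat)
  (hc : p ≠ 2 ∨ P.e = 0)

include hp hpm P hR hc in
theorem exists_par {h : DihedralGroup m} (H : Other S p h) :
    ∃ k₀ k₁ μ, Par S p h k₀ k₁ μ := by
  obtain ⟨μ, hpos, hez, hsq⟩ := square hp hpm P hR hc H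
  set u := cl S h with hu
  set k₀ := ∑ i, S.ind h (r i) with hk0
  set k₁ := ∑ i, S.ind h (sr i) with hk1
  have hk : ∑ x, S.ind h x = k₀ + k₁ := sum_dih _
  rw [hk] at hsq hpos
  have hca : ∀ i, cf (pa u) i = S.ind h (r i) := fun i => co_cl h (r i)
  have hcb : ∀ i, cf (pb u) i = S.ind h (sr i) := fun i => co_cl h (sr i)
  have hsa : ∀ i, cf (pa (u * u)) i = μ + if i = 0 then k₀ + k₁ - μ else 0 := by
    intro i
    refine (co_cl_mul h h (r i)).trans ((hsq _).trans ?_)
    rw [← DihedralGroup.r_zero]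
    simp [-DihedralGroup.r_zero]
  have hsb : ∀ i, cf (pb (u * u)) i = μ := by
    intro i
    refine (co_cl_mul h h (sr i)).trans ((hsq _).trans ?_)
    rw [if_neg (by intro e; cases e), add_zero]
  have ea : eps (pa u) = k₀ := Finset.sum_congr rfl fun i _ => hca i
  have eb : eps (pb u) = k₁ := Finset.sum_congr rfl fun i _ => hcb i
  have e0' : eps (pa (u * u)) = (k₀ + k₁ - μ) + m * μ := by
    rw [eps_def, Finset.sum_congr rfl fun i _ => hsa i]
    simp [Finset.sum_add_distrib, add_comm]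
  have e1' : eps (pb (u * u)) = m * μ := by
    rw [eps_def, Finset.sum_congr rfl fun i _ => hsb i]
    simp
  have hcard : (∑ _i : ZMod m, (1 : ℤ)) = m := by simp
  obtain ⟨i0, hi0⟩ := S.exists_rot h
  obtain ⟨i1, hi1⟩ := exists_sr h H.ne_one
  obtain ⟨i2, hi2⟩ := exists_sr (S := S) (r (gz m p)) fun e =>
    gz_ne hp hpm (DihedralGroup.r.inj (e.trans DihedralGroup.r_zero.symm))
  refine ⟨k₀, k₁, μ, rfl, rfl, ?_, ?_, ?_, ?_, ?_, ?_, by omega,
    H.dvd_eps hp hpm P hR hc, hsa, hez⟩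
  · rw [← e0', pa_mul, map_add, map_mul, map_mul, eps_pw, ea, eb]
  · rw [← e1', pb_mul, map_add, map_mul, map_mul, ea, eb]; ring
  · exact Finset.sum_pos' (fun i _ => S.ind_nonneg _ _) ⟨i0, mem_univ _, by rw [S.ind_of hi0]; norm_num⟩
  · rw [← hcard]
    refine Finset.sum_lt_sum (fun i _ => ind_le_one _ _) ⟨0, mem_univ _, ?_⟩
    rw [DihedralGroup.r_zero, S.ind_of_not fun e => H.ne_one (S.one_rel_iff.1 e)]
    norm_num
  · exact Finset.sum_pos' (fun i _ => S.ind_nonneg _ _) ⟨i1, mem_univ _, by rw [S.ind_of hi1]; norm_num⟩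
  · rw [← hcard]
    refine Finset.sum_lt_sum (fun i _ => ind_le_one _ _) ⟨i2, mem_univ _, ?_⟩
    rw [S.ind_of_not fun e => H.ne_z (S.eqv.trans e (S.eqv.symm hi2))]
    norm_num

include hp hpm P hR hc in
theorem pa_sq_small {h : DihedralGroup m} (H : Other S p h) (j : ℕ) :
    cf (pa (cl S h) * pa (cl S h)) ((j : ZMod m) * gz m p) = ∑ i, S.ind h (r i) := by
  rw [cf_mul]
  refine Finset.sum_congr rfl fun i _ => ?_
  rw [show cf (pa (cl S h)) i = S.ind h (r i) from co_cl h (r i),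
    show cf (pa (cl S h)) ((j : ZMod m) * gz m p - i) = S.ind h (r ((j : ZMod m) * gz m p - i))
      from co_cl h (r _), sub_eq_add_neg, add_comm, H.periodic hp hpm P hR hc,
    ← DihedralGroup.inv_r, S.symm_fun (S.inv_ind h)]
  rcases ind_zero_one (S := S) h (r i) with e | e <;> rw [e] <;> ring

theorem cf_pn (h : DihedralGroup m) (y : ZMod m) :
    cf (pn (cl S h)) y = ∑ i, S.ind h (sr i) * S.ind h (sr (i + y)) := by
  rw [pn, cf_mul]
  refine Fintype.sum_equiv (Equiv.neg _) _ _ fun i => ?_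
  rw [cf_sg, Equiv.neg_apply, show y - i = -i + y by abel]
  exact congrArg₂ (· * ·) (co_cl h (sr (-i))) (co_cl h (sr (-i + y)))

include hp hpm P hR in
theorem odd_false (hp2 : p ≠ 2) {h : DihedralGroup m} (H : Other S p h) : False := by
  obtain ⟨k₀, k₁, μ, K⟩ := exists_par hp hpm P hR (Or.inl hp2) H
  set f : ZMod m → ℤ := fun i => S.ind h (sr i) with hf
  set s : ZMod m → ℤ := fun i => ∑ j ∈ range p, f (i + (j : ZMod m) * gz m p) with hs
  -- the sum over the subgroup of order `p`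
  have hsum : (p : ℤ) * k₀ + ∑ i, f i * s i = (k₀ + k₁ - μ) + p * μ := by
    have h1 : ∑ j ∈ range p, cf (pa (cl S h * cl S h)) ((j : ZMod m) * gz m p) =
        (k₀ + k₁ - μ) + p * μ := by
      rw [Finset.sum_congr rfl fun j _ => K.sa _, Finset.sum_add_distrib, Finset.sum_const,
        Finset.card_range, nsmul_eq_mul, add_comm]
      congr 1
      rw [← Finset.sum_erase_add _ _ (Finset.mem_range.2 hp.pos), Finset.sum_eq_zero, zero_add,
        if_pos (by rw [Nat.cast_zero, zero_mul])]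
      intro g hg
      rw [Finset.mem_erase, Finset.mem_range] at hg
      rw [if_neg]
      intro e
      exact hg.1 (gz_inj hp hpm hg.2 hp.pos (by rw [e, Nat.cast_zero, zero_mul]))
    rw [← h1]
    simp only [pa_sq, cf_add, pa_sq_small hp hpm P hR (Or.inl hp2) H, cf_pn, ← K.e0,
      Finset.sum_add_distrib, Finset.sum_const, Finset.card_range, nsmul_eq_mul, hs,
      Finset.mul_sum, hf]
    rw [Finset.sum_comm]
  have hs1 : ∑ i, s i = p * k₁ := by
    simp only [hs]
    rw [Finset.sum_comm, K.e1]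
    refine (Finset.sum_congr rfl fun (j : ℕ) _ => Fintype.sum_equiv
      (Equiv.addRight ((j : ZMod m) * gz m p)) (fun i => f (i + (j : ZMod m) * gz m p)) f
      fun _ => rfl).trans ?_
    rw [Finset.sum_const, Finset.card_range, nsmul_eq_mul]
  have hs2 : ∑ i, s i * s i = p * ∑ i, f i * s i := by
    have hsper : ∀ (i : ZMod m) (j : ℕ), s (i + (j : ZMod m) * gz m p) = s i := by
      intro i j
      simp only [hs]
      rw [← fibre_sum hp hpm, ← fibre_sum hp hpm]
      congr 1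
      ext x
      simp only [Finset.mem_filter]
      rw [mul_add, show (p : ZMod m) * ((j : ZMod m) * gz m p) = 0 by
        linear_combination (j : ZMod m) * p_mul_gz hp hpm, add_zero]
    calc ∑ i, s i * s i = ∑ j ∈ range p, ∑ i, f (i + (j : ZMod m) * gz m p) * s i := by
          rw [Finset.sum_comm]
          exact Finset.sum_congr rfl fun i _ => by rw [← Finset.sum_mul]
      _ = ∑ j ∈ range p, ∑ i, f i * s i := by
          refine Finset.sum_congr rfl fun j _ => Fintype.sum_equiv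
            (Equiv.addRight ((j : ZMod m) * gz m p)) _ _ fun i => ?_
          simp only [Equiv.coe_addRight, hsper]
      _ = _ := by rw [Finset.sum_const, Finset.card_range, nsmul_eq_mul]
  have hcs := sq_sum_le_card_mul_sum_sq (s := (Finset.univ : Finset (ZMod m))) (f := s)
  simp only [sq, Finset.card_univ, ZMod.card] at hcs
  rw [hs1, hs2] at hcs
  have hp0 : (0 : ℤ) < p := by exact_mod_cast hp.pos
  have h2 : (p : ℤ) * (k₁ * k₁) ≤ m * ∑ i, f i * s i := by
    have := hcs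
    nlinarith
  obtain ⟨q, hq⟩ : (p : ℤ) ∣ k₀ + k₁ := by
    have := H.dvd_wt hp hpm hp2 P hR
    rw [wt_def] at this
    convert this using 1
    rw [K.e0, K.e1]
    exact congrArg₂ (· + ·) (Finset.sum_congr rfl fun i _ => (co_cl h (r i)).symm)
      (Finset.sum_congr rfl fun i _ => (co_cl h (sr i)).symm)
  obtain ⟨q0, hq0⟩ := K.dvd0
  have hd : (p : ℤ) ≤ |k₀ - k₁| := by
    have hne : k₀ - k₁ ≠ 0 := by
      intro e
      have := K.pos; have := K.sq0; have := K.sq1
      have : k₀ = k₁ := by omega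
      subst this; nlinarith
    refine Int.le_of_dvd (abs_pos.2 hne) ?_
    rw [dvd_abs]
    exact ⟨2 * q0 - q, by linear_combination 2 * hq0 - hq⟩
  set d := |k₀ - k₁| with hd'
  have hd2 : d * d = k₀ + k₁ - μ := by
    rw [hd', abs_mul_abs_self]
    linear_combination K.sq0 - K.sq1
  have hbound : |(m : ℤ) - (k₀ + k₁)| < m := by
    rw [abs_lt]; have := K.pos0; have := K.pos1; have := K.lt0; have := K.lt1
    constructor <;> linarith
  have hX : 2 * (k₀ * (m - k₀)) = (m - 1) * (d * d) + (k₀ - k₁) * (m - (k₀ + k₁)) := by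
    rw [hd2]; linear_combination (-1 : ℤ) * K.sq0
  have hmain : (p : ℤ) * (k₀ * (m - k₀) + d * d) ≤ m * (d * d) := by
    have hd3 : d * d = (k₀ - k₁) * (k₀ - k₁) := by rw [hd']; exact abs_mul_abs_self _
    have e1 : (p : ℤ) * (k₀ * (m - k₀) + d * d) =
        m * (p * k₀) + p * (k₁ * k₁) - p * (m * μ) := by
      rw [← K.sq1, hd3]; ring
    have e2 : (m : ℤ) * (∑ i, f i * s i) = m * (d * d + p * μ - p * k₀) := by
      rw [hd2]; congr 1; linarith
    rw [e2] at h2
    rw [e1]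
    linarith [mul_add (m : ℤ) (d * d) (p * μ - p * k₀)]
  have h3 : -(d * m) ≤ (k₀ - k₁) * (m - (k₀ + k₁)) := by
    have := abs_mul (k₀ - k₁) ((m : ℤ) - (k₀ + k₁))
    have h5 := neg_abs_le ((k₀ - k₁) * ((m : ℤ) - (k₀ + k₁)))
    rw [this, ← hd'] at h5
    have : d * |(m : ℤ) - (k₀ + k₁)| ≤ d * m := mul_le_mul_of_nonneg_left hbound.le (abs_nonneg _)
    linarith
  have hp3 : (3 : ℤ) ≤ p := by
    have := hp.two_le; omega
  have hdpos : 0 < d := by linarith
  have h6 : (p : ℤ) * ((m + 1) * d - m) ≤ 2 * m * d := by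
    refine le_of_mul_le_mul_right ?_ hdpos
    have h7 : (p : ℤ) * ((m + 1) * (d * d) - d * m) ≤ p * (2 * (k₀ * (m - k₀) + d * d)) :=
      mul_le_mul_of_nonneg_left (by linarith) hp0.le
    linarith
  have hm0 : (0 : ℤ) < m := by exact_mod_cast NeZero.pos m
  have h7 : (3 : ℤ) * (m + 1) ≤ p * (m + 1) := mul_le_mul_of_nonneg_right hp3 (by linarith)
  have h8 : 0 ≤ ((p : ℤ) * (m + 1) - 2 * m) * (d - p) :=
    mul_nonneg (by linarith) (by linarith)
  have h9 : 0 < (p : ℤ) * (p * (m + 1) - 3 * m) := mul_pos hp0 (by linarith)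
  nlinarith

include hR in
theorem two_false {a : ℕ} (hma : m = 2 ^ (a + 1)) {h : DihedralGroup m} (H : Other S 2 h) : False := by
  have hpm : 2 ∣ m := hma ▸ dvd_pow_self 2 a.succ_ne_zero
  obtain ⟨P⟩ := exists_proj m 2
  have he : P.e = 0 := by
    obtain ⟨T, hT, he⟩ := P.ex
    have h1 : P.e ^ (a + 1) = 0 := by
      rw [he, ← pow_mul, ← Nat.cast_pow, mul_comm, pow_mul, Nat.cast_pow, ← hma, ZMod.natCast_self,
        zero_pow hT.ne']
    rwa [show P.e ^ (a + 1) = P.e from IsIdempotentElem.pow_succ_eq a P.idem] at h1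
  have hc : 2 ≠ 2 ∨ P.e = 0 := Or.inr he
  obtain ⟨k₀, k₁, μ, K⟩ := exists_par Nat.prime_two hpm P hR hc H
  set f : ZMod m → ℤ := fun i => S.ind h (sr i) with hf
  have hzz : gz m 2 + gz m 2 = 0 := by
    rw [← two_mul]; exact_mod_cast p_mul_gz (m := m) Nat.prime_two hpm
  have hμ : (2 : ℤ) ∣ μ := by
    have h1 := K.sa ((1 : ℕ) * gz m 2)
    rw [if_neg (by rw [Nat.cast_one, one_mul]; exact gz_ne Nat.prime_two hpm), add_zero, pa_sq,
      cf_add, pa_sq_small Nat.prime_two hpm P hR hc H, cf_pn, ← K.e0, Nat.cast_one, one_mul] at h1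
    rw [← h1]
    refine dvd_add K.dvd0 ?_
    rw [← Finset.sum_fiberwise Finset.univ (fun i : ZMod m => ((2 : ℕ) : ZMod m) * i)]
    refine Finset.dvd_sum fun y _ => ?_
    by_cases hex : ∃ x, ((2 : ℕ) : ZMod m) * x = y
    · obtain ⟨x, rfl⟩ := hex
      refine fibre_dvd Nat.prime_two hpm (fun i => f i * f (i + gz m 2)) x fun j => ?_
      induction j with
      | zero => simp
      | succ j ih =>
        rw [Nat.cast_succ, add_mul, one_mul, ← add_assoc, add_assoc _ (gz m 2), hzz, add_zero,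
          mul_comm, ih]
    · rw [Finset.sum_eq_zero fun x hx => absurd ⟨x, (Finset.mem_filter.1 hx).2⟩ hex]
      exact dvd_zero _
  obtain ⟨μ', rfl⟩ := hμ
  obtain ⟨q0, hq0⟩ := K.dvd0
  have hk1 : (2 : ℤ) ∣ k₁ := by
    by_contra hodd
    have h2 : ((2 : ℤ) ^ (a + 1)) ∣ k₀ * k₁ := ⟨μ', by
      have := K.sq1
      rw [hma] at this
      push_cast at this
      linarith⟩
    have hc2 : IsCoprime ((2 : ℤ) ^ (a + 1)) k₁ :=
      IsCoprime.pow_left ((Prime.coprime_iff_not_dvd Int.prime_two).2 hodd)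
    have h3 := Int.le_of_dvd K.pos0 (hc2.dvd_of_dvd_mul_right h2)
    have := K.lt0
    rw [hma] at this
    push_cast at this
    linarith
  obtain ⟨q1, hq1⟩ := hk1
  have hd2 : (k₀ - k₁) * (k₀ - k₁) = k₀ + k₁ - 2 * μ' := by linear_combination K.sq0 - K.sq1
  have h4 : (4 : ℤ) ∣ k₀ + k₁ - 2 * μ' := by
    rw [← hd2, hq0, hq1]
    push_cast
    exact ⟨(q0 - q1) * (q0 - q1), by ring⟩
  have hz : gz m 2 = ((2 ^ a : ℕ) : ZMod m) := by
    rw [gz]
    exact congrArg _ (Nat.div_eq_of_eq_mul_right two_pos (hma.trans (pow_succ' 2 a)))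
  have hrho : rho' S 2 h h = k₀ + k₁ - 2 * μ' := by
    rw [rho', conv_one_self, sum_dih, ← K.e0, ← K.e1, ← K.ez]
  have hB := wz_pb Nat.prime_two hpm P hR hc H h
  rw [hrho, hz] at hB
  have hzero := periodic_of_four hma h4 (fun i => by
    rw [show cf (pb (cl S h)) i = S.ind h (sr i) from co_cl h (sr i)]
    exact ind_zero_one h (sr i)) hB
  rw [← mul_assoc, mul_comm _ (sg (pb (cl S h))), mul_assoc, hzero, mul_zero] at hB
  have hpos := K.pos
  have := wz_intCast (hz ▸ gz_ne Nat.prime_two hpm) hB.symm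
  omega

/-- A rational S-ring has rank two. -/
theorem rank_two (hR : S.Rat) {h h' : DihedralGroup m} (hh : h ≠ 1) (hh' : h' ≠ 1) : S.rel h h' := by
  by_contra hne
  obtain ⟨p, hp, hpm, hp2⟩ : ∃ p, p.Prime ∧ p ∣ m ∧ (p ≠ 2 ∨ ∃ a, m = 2 ^ (a + 1)) := by
    by_cases hodd : ∃ p, p.Prime ∧ p ∣ m ∧ p ≠ 2
    · obtain ⟨p, a, b, c⟩ := hodd; exact ⟨p, a, b, Or.inl c⟩
    · push Not at hodd
      have hm := Nat.eq_prime_pow_of_unique_prime_dvd (NeZero.ne m) (p := 2) (fun {d} hd hdm => hodd d hd hdm)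
      have h2 := S.two_le
      obtain ⟨a, ha⟩ : ∃ a, m.primeFactorsList.length = a + 1 := by
        refine ⟨m.primeFactorsList.length - 1, ?_⟩
        rcases Nat.eq_zero_or_pos m.primeFactorsList.length with e | e
        · rw [e, pow_zero] at hm; omega
        · omega
      rw [ha] at hm
      exact ⟨2, Nat.prime_two, hm ▸ dvd_pow_self 2 a.succ_ne_zero, Or.inr ⟨a, hm⟩⟩
  obtain ⟨g, H⟩ : ∃ g, Other S p g := by
    by_cases e : S.rel h (r (gz m p))
    · exact ⟨h', hh', fun e' => hne (S.eqv.trans e (S.eqv.symm e'))⟩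
    · exact ⟨h, hh, e⟩
  rcases eq_or_ne p 2 with rfl | hodd
  · rcases hp2 with e | ⟨a, ha⟩
    · exact e rfl
    · exact two_false hR ha H
  · obtain ⟨P⟩ := exists_proj m p
    exact odd_false hp hpm P hR hodd H

end SR

end Cfsg.Agent.DihBGroup
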