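import Cfsg.Agent.DihBGroup.Final

/-!
Fusing by multipliers: a primitive S-ring over a dihedral group has rank two.
-/

set_option autoImplicit false
set_option linter.unusedSectionVars false

namespace Cfsg.Agent.DihBGroup

open Finset DihedralGroup

variable {m : ℕ} [NeZero m]

namespace SR

variable (S : SR m)

/-- Classes fused by multipliers. -/
def frel (h h' : DihedralGroup m) : Prop :=
  ∃ (c : (ZMod m)ˣ) (i : ZMod m), S.rel h (r i) ∧ S.rel h' (r ((c : ZMod m) * i))

theorem frel_of_rel {h h' : DihedralGroup m} (e : S.rel h h') : S.frel h h' := by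
  obtain ⟨i, hi⟩ := S.exists_rot h
  exact ⟨1, i, hi, by rw [Units.val_one, one_mul]; exact S.eqv.trans (S.eqv.symm e) hi⟩

theorem frel_eqv : Equivalence S.frel where
  refl h := S.frel_of_rel (S.eqv.refl h)
  symm := by
    rintro a b ⟨c, i, h1, h2⟩
    exact ⟨c⁻¹, (c : ZMod m) * i, h2, by rw [← mul_assoc, Units.inv_mul, one_mul]; exact h1⟩
  trans := by
    rintro a b d ⟨c, i, h1, h2⟩ ⟨c', j, h3, h4⟩
    refine ⟨c' * c, i, h1, ?_⟩
    have := S.rel_mult c' (S.eqv.trans (S.eqv.symm h2) h3)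
    rw [Units.val_mul, mul_assoc]
    exact S.eqv.trans h4 (S.eqv.symm this)

theorem frel_mult (c : (ZMod m)ˣ) (i : ZMod m) : S.frel (r i) (r ((c : ZMod m) * i)) :=
  ⟨c, i, S.eqv.refl _, S.eqv.refl _⟩

theorem frel_one {h : DihedralGroup m} (e : S.frel 1 h) : h = 1 := by
  obtain ⟨c, i, h1, h2⟩ := e
  have hi := S.one_class h1
  rw [← DihedralGroup.r_zero, r.injEq] at hi
  rw [hi, mul_zero, DihedralGroup.r_zero] at h2
  exact S.one_rel_iff.1 h2

theorem frel_closed {f g : DihedralGroup m → ℤ} (hf : ∀ a b, S.frel a b → f a = f b)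
    (hg : ∀ a b, S.frel a b → g a = g b) {a b : DihedralGroup m} (e : S.frel a b) :
    conv f g a = conv f g b := by
  have hf' : S.Inv f := fun a b e => hf a b (S.frel_of_rel e)
  have hg' : S.Inv g := fun a b e => hg a b (S.frel_of_rel e)
  obtain ⟨c, i, h1, h2⟩ := e
  rw [S.closed hf' hg' _ _ h1, S.closed hf' hg' _ _ h2]
  set u := el f hf' with hu
  set v := el g hg' with hv
  have hw : co (u * v) = conv f g := (congrArg co (co_mul _ _ _ _)).trans (co_el _ _)
  obtain ⟨q, hq, hqN, hq2, hqc⟩ :=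
    exists_prime_unit m c (|conv f g (r i) - conv f g (r ((c : ZMod m) * i))|).toNat
  have hqu : IsUnit (q : ZMod m) := hqc ▸ c.isUnit
  have hfix : ∀ w : S.El, (∀ j, co w (r ((c : ZMod m) * j)) = co w (r j)) → (q : S.El) ∣ w ^ q - w := by
    intro w hw
    refine dvd_of_pa (natCast_dvd_iff.2 fun y => ?_)
    obtain ⟨j, rfl⟩ : ∃ j, (q : ZMod m) * j = y :=
      ⟨(↑c⁻¹ : ZMod m) * y, by rw [hqc, ← mul_assoc, Units.mul_inv, one_mul]⟩
    rw [pa_sub, cf_sub, show cf (pa w) ((q : ZMod m) * j) = co w (r j) by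
      rw [hqc]; exact hw j]
    exact dvd_co_pow hq hq2 hqu w j
  have h5 : (q : S.El) ∣ (u * v) ^ q - u * v := by
    have ha := hfix u fun j => by
      rw [hu, co_el]; exact (hf _ _ (S.frel_mult c j)).symm
    have hb := hfix v fun j => by
      rw [hv, co_el]; exact (hg _ _ (S.frel_mult c j)).symm
    rw [mul_pow, show u ^ q * v ^ q - u * v = (u ^ q - u) * v ^ q + u * (v ^ q - v) by ring]
    exact dvd_add (ha.mul_right _) (hb.mul_left _)
  have h6 := dvd_co h5 (r ((c : ZMod m) * i))
  rw [co_sub] at h6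
  have h7 := dvd_co_pow hq hq2 hqu (u * v) i
  rw [hqc] at h7
  have h8 := dvd_sub h6 h7
  rw [sub_sub_sub_cancel_left, hw] at h8
  by_contra hne
  have h9 := Int.le_of_dvd (abs_pos.2 (sub_ne_zero.2 hne)) ((dvd_abs _ _).2 h8)
  omega

/-- The fused S-ring. -/
def fuse : SR m where
  two_le := S.two_le
  rel := S.frel
  eqv := S.frel_eqv
  one_class := S.frel_one
  rel_inv {a b} e :=
    S.frel_eqv.trans (S.frel_eqv.symm (S.frel_of_rel (S.rel_self_inv a)))
      (S.frel_eqv.trans e (S.frel_of_rel (S.rel_self_inv b)))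
  closed hf hg _ _ e := S.frel_closed hf hg e
  prim X hX := S.prim X fun a b e => hX a b (S.frel_of_rel e)

theorem fuse_rat : S.fuse.Rat := fun c i => S.frel_mult c i

/-- Rotations in one class. -/
noncomputable def kr (S : SR m) (h : DihedralGroup m) : ℤ := ∑ i, S.ind h (r i)

/-- The size of a class. -/
noncomputable def kt (S : SR m) (h : DihedralGroup m) : ℤ := ∑ x, S.ind h x

theorem ind_congr {a b : DihedralGroup m} (e : S.rel a b) : S.ind a = S.ind b := funext fun x => by
  by_cases hx : S.rel a x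
  · rw [S.ind_of hx, S.ind_of (S.eqv.trans (S.eqv.symm e) hx)]
  · rw [S.ind_of_not hx, S.ind_of_not fun h' => hx (S.eqv.trans e h')]

theorem ind_comm (a b : DihedralGroup m) : S.ind a b = S.ind b a := by
  by_cases hx : S.rel a b
  · rw [S.ind_of hx, S.ind_of (S.eqv.symm hx)]
  · rw [S.ind_of_not hx, S.ind_of_not fun h => hx (S.eqv.symm h)]

theorem kr_mult (c : (ZMod m)ˣ) (i : ZMod m) :
    S.kr (r i) = S.kr (r ((c : ZMod m) * i)) ∧ S.kt (r i) = S.kt (r ((c : ZMod m) * i)) := by
  have hbij : ∀ j, S.ind (r i) (r j) = S.ind (r ((c : ZMod m) * i)) (r ((c : ZMod m) * j)) := by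
    intro j
    by_cases hj : S.rel (r i) (r j)
    · rw [S.ind_of hj, S.ind_of (S.rel_mult c hj)]
    · rw [S.ind_of_not hj, S.ind_of_not fun h => hj ?_]
      have := S.rel_mult c⁻¹ h
      simpa [← mul_assoc] using this
  refine ⟨Fintype.sum_equiv c.mulLeft _ _ hbij, ?_⟩
  obtain ⟨q, hq, hqN, hq2, hqc⟩ := exists_prime_unit m c (2 * m)
  haveI := Fact.mk hq
  have hqu : IsUnit (q : ZMod m) := hqc ▸ c.isUnit
  have hwt : ∀ h, wt (cl S h) = S.kt h := fun h => by
    rw [wt_def, kt, sum_dih]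
    exact congrArg₂ (· + ·) (Finset.sum_congr rfl fun i _ => co_cl h (r i))
      (Finset.sum_congr rfl fun i _ => co_cl h (sr i))
  have h5 : (q : S.El) ∣ cl S (r i) ^ q - cl S (r ((c : ZMod m) * i)) := by
    refine dvd_of_pa (natCast_dvd_iff.2 fun y => ?_)
    obtain ⟨j, rfl⟩ : ∃ j, (q : ZMod m) * j = y :=
      ⟨(↑c⁻¹ : ZMod m) * y, by rw [hqc, ← mul_assoc, Units.mul_inv, one_mul]⟩
    rw [pa_sub, cf_sub, show cf (pa (cl S (r ((c : ZMod m) * i)))) ((q : ZMod m) * j) =
      co (cl S (r i)) (r j) by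
        rw [hqc, co_cl, hbij]; exact co_cl _ (r _)]
    exact dvd_co_pow hq hq2 hqu _ j
  have h6 := map_dvd wt h5
  rw [map_natCast, map_sub, map_pow, hwt, hwt] at h6
  have h7 : (q : ℤ) ∣ S.kt (r i) - S.kt (r i) ^ q :=
    (ZMod.intCast_eq_intCast_iff_dvd_sub _ _ q).1 (by push_cast; rw [ZMod.pow_card])
  have h8 := dvd_add h7 h6
  rw [sub_add_sub_cancel] at h8
  have hb : ∀ h, 0 ≤ S.kt h ∧ S.kt h ≤ 2 * m := fun h => by
    refine ⟨Finset.sum_nonneg fun x _ => S.ind_nonneg _ _, ?_⟩
    have := Finset.sum_le_card_nsmul (Finset.univ : Finset (DihedralGroup m)) (S.ind h) 1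
      fun x _ => ind_le_one h x
    simpa [kt, Finset.card_univ, DihedralGroup.card] using this
  by_contra hne
  have h9 := Int.le_of_dvd (abs_pos.2 (sub_ne_zero.2 hne)) ((dvd_abs _ _).2 h8)
  have := hb (r i); have := hb (r ((c : ZMod m) * i))
  have : |S.kt (r i) - S.kt (r ((c : ZMod m) * i))| < q := by rw [abs_lt]; omega
  omega

/-- A primitive S-ring over a dihedral group has rank two. -/
theorem rank_two_all {a b : DihedralGroup m} (ha : a ≠ 1) (hb : b ≠ 1) : S.rel a b := by
  classical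
  by_contra hne
  have hall : ∀ x, x ≠ 1 → S.kr a = S.kr x ∧ S.kt a = S.kt x := by
    intro x hx
    obtain ⟨c, i, h1, h2⟩ : S.frel a x := rank_two (S := S.fuse) S.fuse_rat ha hx
    have := S.kr_mult c i
    simp only [kr, kt] at this ⊢
    rw [S.ind_congr h1, S.ind_congr h2]
    exact this
  -- count the pairs (x, rotation in the class of x) in two ways
  have h1 : ∀ x, S.kr x = if x = 1 then 1 else S.kr a := by
    intro x
    by_cases hx : x = 1
    · subst hx
      rw [if_pos rfl, kr, Finset.sum_eq_single 0]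
      · rw [DihedralGroup.r_zero, S.ind_self]
      · intro i _ hi
        exact S.ind_of_not fun e => hi (DihedralGroup.r.inj ((S.one_class e).trans DihedralGroup.r_zero.symm))
      · intro h; exact absurd (mem_univ _) h
    · rw [if_neg hx, (hall x hx).1]
  have h2 : ∀ i, S.kt (r i) = if i = 0 then 1 else S.kt a := by
    intro i
    by_cases hi : i = 0
    · subst hi
      rw [if_pos rfl, kt, DihedralGroup.r_zero, Finset.sum_eq_single 1]
      · exact S.ind_self _
      · intro x _ hx
        exact S.ind_of_not fun e => hx (S.one_class e)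
      · intro h; exact absurd (mem_univ _) h
    · rw [if_neg hi, (hall (r i) fun e => hi (DihedralGroup.r.inj (e.trans DihedralGroup.r_zero.symm))).2]
  have hcount : ∑ x, S.kr x = ∑ i, S.kt (r i) := by
    simp only [kr, kt]
    rw [Finset.sum_comm]
    exact Finset.sum_congr rfl fun i _ => Finset.sum_congr rfl fun x _ => S.ind_comm x (r i)
  have hite : ∀ (k : ℤ) (P : Prop) [Decidable P], (if P then 1 else k) = k + if P then 1 - k else 0 := by
    intro k P _; split <;> ring
  rw [Finset.sum_congr rfl fun x _ => (h1 x).trans (hite _ _),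
    Finset.sum_congr rfl fun i _ => (h2 i).trans (hite _ _)] at hcount
  simp only [Finset.sum_add_distrib, Finset.sum_ite_eq', mem_univ, if_true,
    Finset.sum_const, Finset.card_univ, ZMod.card, DihedralGroup.card, nsmul_eq_mul] at hcount
  push_cast at hcount
  have hK : S.kt a * 1 = (2 * (m : ℤ) - 1) * (S.kt a - 2 * S.kr a) := by
    linear_combination 2 * hcount
  rw [mul_one] at hK
  have hpos : 1 ≤ S.kt a :=
    (S.ind_self a).symm.le.trans (Finset.single_le_sum (fun x _ => S.ind_nonneg a x) (mem_univ a))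
  have hne1 : (1 : DihedralGroup m) ≠ b := fun e => hb e.symm
  have hle : S.kt a ≤ 2 * m - 2 := by
    have h3 : ∑ x, S.ind a x ≤ ∑ x, (1 - (if x = 1 then (1 : ℤ) else 0) - if x = b then 1 else 0) := by
      refine Finset.sum_le_sum fun x _ => ?_
      have := ind_le_one (S := S) a x
      by_cases hx1 : x = 1
      · subst hx1
        rw [S.ind_of_not fun e => ha (S.one_rel_iff.1 e), if_pos rfl, if_neg hne1]; norm_num
      · by_cases hxb : x = b
        · subst hxb
          rw [S.ind_of_not hne, if_pos rfl, if_neg hx1]; norm_num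
        · rw [if_neg hx1, if_neg hxb]; omega
    simp [Finset.sum_sub_distrib, DihedralGroup.card] at h3
    rw [kt]; omega
  have h2m := S.two_le
  rcases le_or_gt (S.kt a - 2 * S.kr a) 0 with e | e
  · have : (2 * (m : ℤ) - 1) * (S.kt a - 2 * S.kr a) ≤ 0 :=
      mul_nonpos_of_nonneg_of_nonpos (by omega) e
    omega
  · have : (2 * (m : ℤ) - 1) * 1 ≤ (2 * (m : ℤ) - 1) * (S.kt a - 2 * S.kr a) :=
      mul_le_mul_of_nonneg_left (by omega) (by omega)
    omega

end SR

end Cfsg.Agent.DihBGroup
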