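import Mathlib.Algebra.MonoidAlgebra.MapDomain
import Mathlib.Algebra.BigOperators.Group.Finset.Basic
import Mathlib.Algebra.BigOperators.Ring.Finset
import Mathlib.Data.ZMod.Basic
import Mathlib.Data.Nat.Choose.Sum
import Mathlib.NumberTheory.Multiplicity
import Mathlib.FieldTheory.Finite.Basic

/-!
The integral group ring of a finite cyclic group: multiplier maps and congruences.
-/

set_option autoImplicit false
set_option linter.unusedSectionVars false

namespace Cfsg.Agent.DihBGroup

open Finset

/-- The integral group ring of the cyclic group of order `m`. -/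
abbrev GR (m : ℕ) := AddMonoidAlgebra ℤ (ZMod m)

variable {m : ℕ} [NeZero m]

/-- The element with given coefficients. -/
noncomputable def ofFun (f : ZMod m → ℤ) : GR m :=
  AddMonoidAlgebra.ofCoeff (Finsupp.equivFunOnFinite.symm f)

/-- The coefficient. -/
noncomputable def cf (A : GR m) (i : ZMod m) : ℤ := A.coeff i

@[simp] theorem cf_ofFun (f : ZMod m → ℤ) (i : ZMod m) : cf (ofFun f) i = f i := by
  simp [cf, ofFun]

theorem gr_ext {A B : GR m} (h : ∀ i, cf A i = cf B i) : A = B :=
  AddMonoidAlgebra.ext (Finsupp.ext h)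

@[simp] theorem cf_add (A B : GR m) (i : ZMod m) : cf (A + B) i = cf A i + cf B i := by simp [cf]

@[simp] theorem cf_sub (A B : GR m) (i : ZMod m) : cf (A - B) i = cf A i - cf B i := by simp [cf]

@[simp] theorem cf_zero (i : ZMod m) : cf (0 : GR m) i = 0 := by simp [cf]

theorem cf_sum {ι : Type*} (s : Finset ι) (F : ι → GR m) (i : ZMod m) :
    cf (∑ k ∈ s, F k) i = ∑ k ∈ s, cf (F k) i := by
  classical
  induction s using Finset.induction_on with
  | empty => simp
  | insert a s ha ih => simp [Finset.sum_insert ha, ih]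

theorem cf_single (a : ZMod m) (r : ℤ) (i : ZMod m) :
    cf (AddMonoidAlgebra.single a r) i = if i = a then r else 0 := by
  classical
  simp [cf, Finsupp.single_apply, eq_comm]

theorem gr_eq_sum (A : GR m) : A = ∑ i, AddMonoidAlgebra.single i (cf A i) := by
  classical
  refine gr_ext fun j => ?_
  rw [cf_sum]
  simp [cf_single]

theorem cf_mul (A B : GR m) (y : ZMod m) : cf (A * B) y = ∑ i, cf A i * cf B (y - i) := by
  classical
  conv_lhs => rw [gr_eq_sum A, gr_eq_sum B, Finset.sum_mul_sum, cf_sum]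
  refine Finset.sum_congr rfl fun i _ => ?_
  rw [cf_sum]
  simp only [AddMonoidAlgebra.single_mul_single, cf_single]
  have : ∀ j, (y = i + j) = (j = y - i) := fun j => propext
    ⟨fun h => by rw [h]; abel, fun h => by rw [h]; abel⟩
  simp [this]

theorem cf_one (i : ZMod m) : cf (1 : GR m) i = if i = 0 then 1 else 0 := by
  rw [AddMonoidAlgebra.one_def, cf_single]

theorem cf_natCast (n : ℕ) (i : ZMod m) : cf (n : GR m) i = if i = 0 then (n : ℤ) else 0 := by
  induction n with
  | zero => simp
  | succ k ih =>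
    rw [Nat.cast_succ, cf_add, ih, cf_one]
    split <;> simp

theorem cf_natCast_mul (n : ℕ) (A : GR m) (i : ZMod m) : cf ((n : GR m) * A) i = n * cf A i := by
  classical
  rw [cf_mul]
  simp [cf_natCast, ite_mul]

theorem natCast_dvd_iff {n : ℕ} {A : GR m} : (n : GR m) ∣ A ↔ ∀ i, (n : ℤ) ∣ cf A i := by
  constructor
  · rintro ⟨B, rfl⟩ i
    exact ⟨cf B i, cf_natCast_mul n B i⟩
  · intro h
    choose g hg using h
    exact ⟨ofFun g, gr_ext fun i => by rw [cf_natCast_mul, cf_ofFun, hg]⟩

/-- The augmentation. -/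
noncomputable def eps : GR m →+* ℤ where
  toFun A := ∑ i, cf A i
  map_one' := by simp [cf_one]
  map_mul' A B := by
    simp only [cf_mul]
    rw [Finset.sum_comm, Finset.sum_mul]
    refine Finset.sum_congr rfl fun i _ => ?_
    rw [← Finset.mul_sum]
    congr 1
    exact Fintype.sum_equiv (Equiv.subRight i) _ _ fun _ => rfl
  map_zero' := by simp
  map_add' A B := by simp [Finset.sum_add_distrib]

theorem eps_def (A : GR m) : eps A = ∑ i, cf A i := rfl

/-- The map induced by multiplication with `c` on the group. -/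
noncomputable def pw (c : ZMod m) : GR m →+* GR m :=
  AddMonoidAlgebra.mapDomainRingHom ℤ (AddMonoidHom.mulLeft c)

theorem pw_single (c a : ZMod m) (r : ℤ) :
    pw c (AddMonoidAlgebra.single a r) = AddMonoidAlgebra.single (c * a) r :=
  AddMonoidAlgebra.mapDomain_single

theorem cf_pw (c : ZMod m) (A : GR m) (y : ZMod m) :
    cf (pw c A) y = ∑ i with c * i = y, cf A i := by
  classical
  conv_lhs => rw [gr_eq_sum A, map_sum, cf_sum]
  simp only [pw_single, cf_single, Finset.sum_filter]
  exact Finset.sum_congr rfl fun i _ => if_congr eq_comm rfl rfl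

theorem pw_pw (c d : ZMod m) (A : GR m) : pw c (pw d A) = pw (c * d) A := by
  rw [gr_eq_sum A, map_sum, map_sum, map_sum]
  simp [pw_single, mul_assoc]

theorem pw_one (A : GR m) : pw 1 A = A := by
  conv_rhs => rw [gr_eq_sum A]
  rw [gr_eq_sum A, map_sum]
  simp [pw_single, ← gr_eq_sum]

theorem cf_pw_inj {c : ZMod m} (hc : IsUnit c) (A : GR m) (i : ZMod m) :
    cf (pw c A) (c * i) = cf A i := by
  classical
  rw [cf_pw, Finset.sum_filter]
  simp [hc.mul_right_inj]

/-- The reversal of the group. -/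
noncomputable abbrev sg : GR m →+* GR m := pw (-1)

theorem cf_sg (A : GR m) (i : ZMod m) : cf (sg A) i = cf A (-i) := by
  have h := cf_pw_inj (c := (-1 : ZMod m)) isUnit_one.neg A (-i)
  simpa using h

theorem sg_sg (A : GR m) : sg (sg A) = A := by
  rw [pw_pw, neg_one_mul, neg_neg, pw_one]

theorem eps_pw (c : ZMod m) (A : GR m) : eps (pw c A) = eps A := by
  conv_lhs => rw [gr_eq_sum A, map_sum, map_sum]
  rw [eps_def A]
  refine Finset.sum_congr rfl fun i _ => ?_
  simp [pw_single, eps_def, cf_single]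

section Freshman

variable {R : Type*} [CommRing R]

theorem dvd_sum_pow_sub {ι : Type*} {p : ℕ} (hp : p.Prime) (s : Finset ι) (x : ι → R) :
    (p : R) ∣ (∑ i ∈ s, x i) ^ p - ∑ i ∈ s, x i ^ p := by
  classical
  induction s using Finset.induction_on with
  | empty => simp [zero_pow hp.ne_zero]
  | insert a s ha ih =>
    obtain ⟨r, hr⟩ := exists_add_pow_prime_eq hp (x a) (∑ i ∈ s, x i)
    rw [Finset.sum_insert ha, Finset.sum_insert ha, hr]
    have : x a ^ p + (∑ i ∈ s, x i) ^ p + ↑p * x a * (∑ i ∈ s, x i) * r -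
        (x a ^ p + ∑ i ∈ s, x i ^ p) =
        ((∑ i ∈ s, x i) ^ p - ∑ i ∈ s, x i ^ p) + ↑p * (x a * (∑ i ∈ s, x i) * r) := by ring
    rw [this]
    exact dvd_add ih (dvd_mul_right _ _)

end Freshman

/-- The `p`-th power is congruent to the image under multiplication by `p`. -/
theorem dvd_pow_sub_pw {p : ℕ} (hp : p.Prime) (A : GR m) :
    (p : GR m) ∣ A ^ p - pw (p : ZMod m) A := by
  haveI := Fact.mk hp
  have h := dvd_sum_pow_sub hp (Finset.univ : Finset (ZMod m))
    (fun i => AddMonoidAlgebra.single i (cf A i))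
  rw [← gr_eq_sum A] at h
  have h2 : (p : GR m) ∣ ∑ i, AddMonoidAlgebra.single i (cf A i) ^ p - pw (p : ZMod m) A := by
    conv_rhs => arg 2; rw [gr_eq_sum A, map_sum]
    rw [← Finset.sum_sub_distrib]
    refine Finset.dvd_sum fun i _ => natCast_dvd_iff.2 fun j => ?_
    rw [cf_sub, AddMonoidAlgebra.single_pow, pw_single, cf_single, cf_single, nsmul_eq_mul]
    split
    · exact (ZMod.intCast_eq_intCast_iff_dvd_sub _ _ p).1 (by push_cast; rw [ZMod.pow_card])
    · simp
  have := dvd_add h h2
  rwa [sub_add_sub_cancel] at this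

theorem pw_natCast (c : ZMod m) (n : ℕ) : pw c (n : GR m) = n := map_natCast _ n

theorem dvd_pw {c : ZMod m} {n : ℕ} {A : GR m} (h : (n : GR m) ∣ A) : (n : GR m) ∣ pw c A := by
  have := map_dvd (pw c) h
  rwa [map_natCast] at this

end Cfsg.Agent.DihBGroup
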