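import Cfsg.Agent.DihBGroup.Elem
import Mathlib.NumberTheory.Basic

/-!
No class has all its rotations of order prime to an odd prime divisor of `m`.
-/

set_option autoImplicit false
set_option linter.unusedSectionVars false

namespace Cfsg.Agent.DihBGroup

open Finset DihedralGroup

variable {m : ℕ} [NeZero m]

theorem exists_idem {M : Type*} [Monoid M] [Finite M] (x : M) :
    ∃ T : ℕ, 0 < T ∧ IsIdempotentElem (x ^ T) := by
  obtain ⟨i, j, hne, hij⟩ := Finite.exists_ne_map_eq_of_infinite fun n : ℕ => x ^ n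
  wlog hlt : i < j generalizing i j
  · exact this j i hne.symm hij.symm (lt_of_le_of_ne (not_lt.1 hlt) hne.symm)
  obtain ⟨d, rfl⟩ : ∃ d, j = i + (d + 1) := ⟨j - i - 1, by omega⟩
  try simp only at hij
  have hk : ∀ k, x ^ (i + k * (d + 1)) = x ^ i := by
    intro k
    induction k with
    | zero => simp
    | succ k ih => rw [Nat.succ_mul, ← add_assoc, add_right_comm, pow_add, ← hij, ← pow_add, ih]
  refine ⟨(i + 1) * (d + 1), Nat.mul_pos (Nat.succ_pos _) (Nat.succ_pos _), ?_⟩
  obtain ⟨s, hs⟩ : ∃ s, (i + 1) * (d + 1) = i + s :=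
    ⟨(i + 1) * (d + 1) - i, by
      have : i + 1 ≤ (i + 1) * (d + 1) := Nat.le_mul_of_pos_right _ (Nat.succ_pos d)
      omega⟩
  show x ^ ((i + 1) * (d + 1)) * x ^ ((i + 1) * (d + 1)) = x ^ ((i + 1) * (d + 1))
  rw [← pow_add]
  calc x ^ ((i + 1) * (d + 1) + (i + 1) * (d + 1))
      = x ^ (i + (i + 1) * (d + 1)) * x ^ s := by rw [← pow_add]; congr 1; omega
    _ = x ^ ((i + 1) * (d + 1)) := by rw [hk, ← pow_add, hs]

/-- A projection onto the part of order prime to `p`. -/
structure Proj (m p : ℕ) where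
  e : ZMod m
  idem : e * e = e
  ex : ∃ T : ℕ, 0 < T ∧ e = (p : ZMod m) ^ T

theorem exists_proj (m p : ℕ) [NeZero m] : Nonempty (Proj m p) := by
  obtain ⟨T, hT, h⟩ := exists_idem (p : ZMod m)
  exact ⟨⟨_, h, T, hT, rfl⟩⟩

namespace Proj

variable {p : ℕ} (P : Proj m p)

theorem e_ne_one (hp : p.Prime) (hpm : p ∣ m) : P.e ≠ 1 := by
  obtain ⟨T, hT, he⟩ := P.ex
  intro h
  have hu : IsUnit (p : ZMod m) := (isUnit_pow_iff hT.ne').1 (he ▸ h ▸ isUnit_one)
  rw [ZMod.isUnit_iff_coprime] at hu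
  exact hp.one_lt.ne' (Nat.Coprime.eq_one_of_dvd hu hpm)

/-- A unit acting like `p` on the fixed points of the projection. -/
theorem exists_unit : ∃ c : (ZMod m)ˣ, ∀ x, P.e * x = x → (c : ZMod m) * x = p * x := by
  obtain ⟨T, hT, he⟩ := P.ex
  obtain ⟨S, rfl⟩ : ∃ S, T = S + 1 := ⟨T - 1, by omega⟩
  have h1 : ((p : ZMod m) * P.e + (1 - P.e)) * ((p : ZMod m) ^ S * P.e + (1 - P.e)) = 1 := by
    have h2 : (p : ZMod m) * (p : ZMod m) ^ S = P.e := by rw [he, pow_succ']
    linear_combination (P.e * P.e) * h2 +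
      (P.e + 2 - (p : ZMod m) - (p : ZMod m) ^ S) * P.idem
  refine ⟨⟨_, _, h1, by rw [mul_comm]; exact h1⟩, fun x hx => ?_⟩
  show ((p : ZMod m) * P.e + (1 - P.e)) * x = p * x
  linear_combination ((p : ZMod m) - 1) * hx

theorem mul_inj {x y : ZMod m} (hx : P.e * x = x) (hy : P.e * y = y)
    (h : (p : ZMod m) * x = p * y) : x = y := by
  obtain ⟨c, hc⟩ := P.exists_unit
  rw [← hc x hx, ← hc y hy] at h
  exact c.isUnit.mul_left_cancel h

theorem cf_pw_of_not {A : GR m} {y : ZMod m} (h : P.e * y ≠ y) : cf (pw P.e A) y = 0 := by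
  rw [cf_pw]
  refine Finset.sum_eq_zero fun i hi => absurd ?_ h
  rw [Finset.mem_filter] at hi
  rw [← hi.2, ← mul_assoc, P.idem]

theorem dvd_cf {n : ℕ} {A : GR m} (h : (n : GR m) ∣ A - pw P.e A) {y : ZMod m}
    (hy : P.e * y ≠ y) : (n : ℤ) ∣ cf A y := by
  have := natCast_dvd_iff.1 h y
  rwa [cf_sub, P.cf_pw_of_not hy, sub_zero] at this

theorem dvd_sub_pw_of_cf {n : ℕ} {A : GR m} (h : ∀ y, P.e * y ≠ y → (n : ℤ) ∣ cf A y) :
    (n : GR m) ∣ A - pw P.e A := by
  classical
  rw [show A - pw P.e A = ∑ y, (AddMonoidAlgebra.single y (cf A y) -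
      AddMonoidAlgebra.single (P.e * y) (cf A y)) by
    rw [Finset.sum_sub_distrib, ← gr_eq_sum]
    conv_lhs => arg 2; rw [gr_eq_sum A, map_sum]
    simp [pw_single]]
  refine Finset.dvd_sum fun y _ => ?_
  by_cases hy : P.e * y = y
  · simp [hy]
  · refine natCast_dvd_iff.2 fun i => ?_
    rw [cf_sub, cf_single, cf_single]
    apply dvd_sub <;> split <;> simp [h y hy]

theorem dvd_of_pw {n : ℕ} {A : GR m} (h : (n : GR m) ∣ A - pw (p : ZMod m) A) :
    (n : GR m) ∣ A - pw P.e A := by
  obtain ⟨T, -, he⟩ := P.ex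
  have : ∀ t : ℕ, (n : GR m) ∣ A - pw ((p : ZMod m) ^ t) A := by
    intro t
    induction t with
    | zero => simp [pw_one]
    | succ t ih =>
      have h2 := dvd_pw (c := (p : ZMod m)) ih
      rw [map_sub, pw_pw, ← pow_succ'] at h2
      have := dvd_add h h2
      rwa [sub_add_sub_cancel] at this
  rw [he]; exact this T

end Proj

namespace SR

variable (S : SR m)

/-- The classes are invariant under the multipliers on the rotations. -/
def Rat : Prop := ∀ (c : (ZMod m)ˣ) (i : ZMod m), S.rel (r i) (r ((c : ZMod m) * i))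

variable {S} {p : ℕ} (hp : p.Prime) (hp2 : p ≠ 2) (P : Proj m p) (hR : S.Rat)

/-- Fixed modulo `p ^ i` by the projection. -/
def Fix (i : ℕ) (u : S.El) : Prop := ((p ^ i : ℕ) : GR m) ∣ pa u - pw P.e (pa u)

include hR in
theorem pw_self (u : S.El) (h : Fix P 1 u) : (p : GR m) ∣ pw (p : ZMod m) (pa u) - pa u := by
  classical
  rw [Fix, pow_one] at h
  obtain ⟨c, hc⟩ := P.exists_unit
  have hcu : pw (c : ZMod m) (pa u) = pa u := gr_ext fun y => by
    obtain ⟨z, rfl⟩ : ∃ z, (c : ZMod m) * z = y := ⟨(↑c⁻¹ : ZMod m) * y, by simp [← mul_assoc]⟩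
    rw [cf_pw_inj c.isUnit]
    exact inv_co u _ _ (hR c z)
  have hpc : pw (p : ZMod m) (pw P.e (pa u)) = pw (c : ZMod m) (pw P.e (pa u)) := by
    rw [gr_eq_sum (pa u), map_sum, map_sum, map_sum]
    refine Finset.sum_congr rfl fun i _ => ?_
    rw [pw_single, pw_single, pw_single, hc (P.e * i) (by rw [← mul_assoc, P.idem])]
  have h1 := dvd_pw (c := (p : ZMod m)) h
  have h2 := dvd_pw (c := (c : ZMod m)) h
  rw [map_sub] at h1 h2
  rw [hpc] at h1
  rw [hcu] at h2
  have := dvd_sub h1 h2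
  rwa [sub_sub_sub_cancel_right] at this

include hp hp2 hR in
theorem dvd_pow_sub_self (u : S.El) (h : Fix P 1 u) : (p : S.El) ∣ u ^ p - u := by
  refine dvd_of_pa ?_
  rw [pa_sub]
  have := dvd_add (dvd_pa_pow_pw hp hp2 u) (pw_self P hR u h)
  rwa [sub_add_sub_cancel] at this

include hp hp2 in
/-- A root of `X ^ p = X` modulo `p ^ k` is fixed modulo `p ^ k`. -/
theorem fix_of_root (k : ℕ) (hk : 1 ≤ k) :
    ∀ v : S.El, ((p ^ k : ℕ) : S.El) ∣ v ^ p - v → Fix P k v := by
  suffices ∀ j, 1 ≤ j → j ≤ k → ∀ v : S.El, ((p ^ k : ℕ) : S.El) ∣ v ^ p - v → Fix P j v from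
    this k hk le_rfl
  intro j hj
  induction j, hj using Nat.le_induction with
  | base =>
    intro _ v hv
    rw [Fix, pow_one]
    refine P.dvd_of_pw ?_
    have h1 : (p : GR m) ∣ pa (v ^ p) - pa v := by
      refine dvd_trans ?_ (dvd_pa_sub hv)
      exact Nat.cast_dvd_cast (dvd_pow_self p (by omega))
    have := dvd_sub (dvd_pa_pow_pw hp hp2 v) h1
    rwa [sub_sub_sub_cancel_left] at this
  | succ j hj ih =>
    intro hjk v hv
    have hA : Fix P j v := ih (by omega) v hv
    have hvA : ((p ^ k : ℕ) : GR m) ∣ pa (v ^ p) - pa v := dvd_pa_sub hv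
    have hsq : ((p ^ k : ℕ) : S.El) ∣ (v * v) ^ p - v * v := by
      rw [mul_pow, show v ^ p * v ^ p - v * v = (v ^ p - v) * (v ^ p + v) by ring]
      exact Dvd.dvd.mul_right hv _
    have hN : ((p ^ j : ℕ) : GR m) ∣ pn v - pw P.e (pn v) := by
      have h2 : Fix P j (v * v) := ih (by omega) _ hsq
      rw [Fix, pa_sq, map_add, map_mul] at h2
      rw [Fix] at hA
      have hAA : ((p ^ j : ℕ) : GR m) ∣
          pa v * pa v - pw P.e (pa v) * pw P.e (pa v) := by
        rw [mul_self_sub_mul_self]; exact Dvd.dvd.mul_left hA _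
      have := dvd_sub h2 hAA
      rwa [show ∀ a b c d : GR m, a + b - (c + d) - (a - c) = b - d from fun a b c d => by ring]
        at this
    rw [Fix, Nat.cast_pow] at *
    have hF : (p : GR m) ^ (j + 1) ∣ pa (v ^ p) - pw P.e (pa (v ^ p)) := by
      rw [pa_pow, map_sum, ← Finset.sum_sub_distrib]
      refine Finset.dvd_sum fun i hi => ?_
      rw [Finset.mem_range] at hi
      rw [map_mul, map_mul, map_pow, map_natCast]
      rcases Nat.eq_zero_or_pos i with rfl | hi0
      · have hpA : (p : GR m) ∣ pa v - pw P.e (pa v) :=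
          (dvd_pow_self _ (by omega)).trans hA
        rw [if_pos Even.zero, Nat.zero_div, pow_zero, map_one, Nat.sub_zero, Nat.choose_zero_right,
          Nat.cast_one, one_mul, one_mul, mul_one, mul_one]
        obtain ⟨w, hw⟩ := hA
        obtain ⟨q, rfl⟩ : ∃ q, j = q + 1 := ⟨j - 1, by omega⟩
        -- the general congruence for `p`-th powers
        have h3 : (p : GR m) ^ (q + 1) * p ∣ pa v ^ p - pw P.e (pa v) ^ p := by
          rw [← geom_sum₂_mul, mul_comm _ (pa v - pw P.e (pa v)), hw, mul_assoc]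
          refine mul_dvd_mul_left _ (Dvd.dvd.mul_left ?_ _)
          exact dvd_geom_sum₂_self hpA
        rwa [← pow_succ] at h3
      rcases lt_or_eq_of_le (Nat.lt_succ_iff.1 hi) with hlt | rfl
      · rw [← sub_mul, pow_succ]
        refine mul_dvd_mul ?_ (Nat.cast_dvd_cast (hp.dvd_choose_self hi0.ne' hlt))
        have hpowA : ∀ n, (p : GR m) ^ j ∣ pa v ^ n - pw P.e (pa v) ^ n := fun n =>
          hA.trans (sub_dvd_pow_sub_pow _ _ n)
        split
        · rename_i hev
          rw [map_pow, show ∀ a b c d : GR m, a * b - c * d = a * (b - d) + (a - c) * d from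
            fun a b c d => by ring]
          exact dvd_add (Dvd.dvd.mul_left (hpowA _) _)
            (Dvd.dvd.mul_right (hN.trans (sub_dvd_pow_sub_pow _ _ _)) _)
        · simp
      · rw [if_neg (Nat.not_even_iff_odd.2 (hp.odd_of_ne_two hp2))]
        simp
    have hv' : (p : GR m) ^ (j + 1) ∣ pa (v ^ p) - pa v := by
      exact (pow_dvd_pow (p : GR m) hjk).trans hvA
    have h5 := map_dvd (pw P.e) hv'
    rw [map_pow, map_natCast, map_sub] at h5
    have := dvd_add (dvd_sub hF hv') h5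
    rwa [show ∀ a b c d : GR m, a - c - (a - b) + (c - d) = b - d from fun a b c d => by ring]
      at this

include hp hp2 hR in
/-- Products of fixed elements are fixed. -/
theorem fix_mul (i : ℕ) : ∀ u v : S.El, Fix P i u → Fix P i v → Fix P i (u * v) := by
  induction i with
  | zero => intro u v _ _; rw [Fix, pow_zero, Nat.cast_one]; exact one_dvd _
  | succ i ih =>
    intro u v hu hv
    have hmono : ∀ {w : S.El} {j}, j ≤ i + 1 → Fix P (i + 1) w → Fix P j w := fun hj hw =>
      (Nat.cast_dvd_cast (pow_dvd_pow p hj)).trans hw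
    have key : ∀ u : S.El, Fix P (i + 1) u → ∃ w u₁ : S.El, u = w + (p : S.El) * u₁ ∧
        ((p ^ (i + 1) : ℕ) : S.El) ∣ w ^ p - w ∧ Fix P (i + 1) w ∧ Fix P i u₁ := by
      intro u hu
      have h1 : (p : S.El) ∣ u ^ p - u := dvd_pow_sub_self hp hp2 P hR u (hmono (by omega) hu)
      have hroot : ((p ^ (i + 1) : ℕ) : S.El) ∣ (u ^ p ^ i) ^ p - u ^ p ^ i := by
        rw [Nat.cast_pow, ← pow_mul, mul_comm, pow_mul]
        exact dvd_sub_pow_of_dvd_sub h1 i
      have hdiv : (p : S.El) ∣ u - u ^ p ^ i := by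
        clear hroot
        induction i with
        | zero => simp
        | succ k _ =>
          have : ∀ t, (p : S.El) ∣ u - u ^ p ^ t := by
            intro t
            induction t with
            | zero => simp
            | succ t iht =>
              have h2 : (p : S.El) ∣ u ^ p - (u ^ p ^ t) ^ p := iht.trans (sub_dvd_pow_sub_pow _ _ p)
              rw [← pow_mul, ← pow_succ] at h2
              have := dvd_sub h2 h1
              rwa [sub_sub_sub_cancel_left] at this
          exact this _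
      obtain ⟨u₁, hu₁⟩ := hdiv
      have hw : Fix P (i + 1) (u ^ p ^ i) := fix_of_root hp hp2 P _ (by omega) _ hroot
      refine ⟨u ^ p ^ i, u₁, by linear_combination hu₁, hroot, hw, ?_⟩
      rw [Fix] at hu hw ⊢
      refine P.dvd_sub_pw_of_cf fun y hy => ?_
      have h3 := dvd_sub (P.dvd_cf hu hy) (P.dvd_cf hw hy)
      rw [← cf_sub, ← pa_sub, hu₁, pa_natCast_mul, cf_natCast_mul, pow_succ', Nat.cast_mul] at h3
      exact (mul_dvd_mul_iff_left (Int.natCast_ne_zero.2 hp.ne_zero)).1 h3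
    obtain ⟨w, u₁, rfl, hwr, hw, hu₁⟩ := key u hu
    obtain ⟨w', v₁, rfl, hwr', hw', hv₁⟩ := key v hv
    have hww : Fix P (i + 1) (w * w') := by
      refine fix_of_root hp hp2 P _ (by omega) _ ?_
      rw [mul_pow, show w ^ p * w' ^ p - w * w' = (w ^ p - w) * w' ^ p + w * (w' ^ p - w') by ring]
      exact dvd_add (Dvd.dvd.mul_right hwr _) (Dvd.dvd.mul_left hwr' _)
    have h1 := ih u₁ (w' + (p : S.El) * v₁) hu₁ (hmono (by omega) hv)
    have h2 := ih w v₁ (hmono (by omega) hw) hv₁
    rw [show (w + (p : S.El) * u₁) * (w' + (p : S.El) * v₁) =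
        w * w' + (p : S.El) * (u₁ * (w' + (p : S.El) * v₁) + w * v₁) by ring]
    rw [Fix] at *
    rw [pa_add, pa_natCast_mul, map_add, map_mul, map_natCast, pa_add, map_add, add_sub_add_comm,
      ← mul_sub, add_sub_add_comm]
    refine dvd_add hww ?_
    rw [pow_succ', Nat.cast_mul]
    exact mul_dvd_mul_left _ (dvd_add h1 h2)

include hp hp2 hR in
/-- No nontrivial class has all its rotations fixed by the projection. -/
theorem no_free (hpm : p ∣ m) {h : DihedralGroup m} (hh : h ≠ 1) :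
    ∃ i, S.rel h (r i) ∧ P.e * i ≠ i := by
  classical
  by_contra hno
  push Not at hno
  set W : Set (DihedralGroup m) := {x | ∀ i, S.rel x (r i) → P.e * i = i} with hW
  have hWu : ∀ a b, S.rel a b → a ∈ W → b ∈ W := fun a b hab ha i hi => ha i (S.eqv.trans hab hi)
  have hmul : ∀ a b, a ∈ W → b ∈ W → a * b ∈ W := by
    intro a b ha hb i hi
    by_contra hne
    have hfix : ∀ (k : ℕ) (x : DihedralGroup m), x ∈ W → Fix P k (el (S.ind x) (S.inv_ind x)) := by
      intro k x hx
      refine P.dvd_sub_pw_of_cf fun y hy => ?_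
      have : cf (pa (el (S.ind x) (S.inv_ind x))) y = S.ind x (r y) := congrFun (co_el _ _) (r y)
      rw [this, S.ind_of_not fun hr => hy (hx y hr)]
      exact dvd_zero _
    set w : S.El := el (S.ind a) (S.inv_ind a) * el (S.ind b) (S.inv_ind b) with hw
    have hco : co w = conv (S.ind a) (S.ind b) :=
      (congrArg co (co_mul _ _ _ _)).trans (co_el _ _)
    have hpos : 0 < co w (r i) := by
      rw [← inv_co w _ _ hi, hco]
      refine Finset.sum_pos' (fun x _ => mul_nonneg (S.ind_nonneg _ _) (S.ind_nonneg _ _))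
        ⟨a, mem_univ _, ?_⟩
      simp [S.ind_self]
    obtain ⟨k, hk⟩ : ∃ k : ℕ, co w (r i) < ((p ^ k : ℕ) : ℤ) := by
      refine ⟨(co w (r i)).toNat, ?_⟩
      have := Nat.lt_pow_self (n := (co w (r i)).toNat) hp.one_lt
      omega
    have hd := P.dvd_cf (fix_mul hp hp2 P hR k _ _ (hfix k a ha) (hfix k b hb)) hne
    have := Int.le_of_dvd hpos hd
    omega
  have h1 : (1 : DihedralGroup m) ∈ W := fun i hi => by
    have := S.one_class hi
    rw [← DihedralGroup.r_zero, r.injEq] at this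
    simp [this]
  let X : Subgroup (DihedralGroup m) :=
    { carrier := W, mul_mem' := fun {a b} => hmul a b, one_mem' := h1,
      inv_mem' := fun {a} ha => hWu a _ (S.rel_self_inv a) ha }
  rcases S.prim X hWu with e | e
  · have : h ∈ X := hno
    rw [e, Subgroup.mem_bot] at this
    exact hh this
  · have : r 1 ∈ X := by rw [e]; exact Subgroup.mem_top _
    have := this 1 (S.eqv.refl _)
    rw [mul_one] at this
    exact P.e_ne_one hp hpm this

end SR

end Cfsg.Agent.DihBGroup
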