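import Cfsg.Agent.DihBGroup.Lift

/-!
Periodicity of the classes along the subgroup of order `p` of the rotations.
-/

set_option autoImplicit false
set_option linter.unusedSectionVars false

namespace Cfsg.Agent.DihBGroup

open Finset DihedralGroup

variable {m : ℕ} [NeZero m]

/-- The generator of the subgroup of order `p`. -/
def gz (m p : ℕ) : ZMod m := ((m / p : ℕ) : ZMod m)

section Cyclic

variable {p : ℕ} (hp : p.Prime) (hpm : p ∣ m)
include hp hpm

theorem p_mul_gz : (p : ZMod m) * gz m p = 0 := by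
  rw [gz, ← Nat.cast_mul, Nat.mul_div_cancel' hpm, ZMod.natCast_self]

theorem gz_inj {i j : ℕ} (hi : i < p) (hj : j < p)
    (h : (i : ZMod m) * gz m p = j * gz m p) : i = j := by
  have hq : 0 < m / p := Nat.div_pos (Nat.le_of_dvd (Nat.pos_of_neZero m) hpm) hp.pos
  have hm : p * (m / p) = m := Nat.mul_div_cancel' hpm
  rw [gz, ← Nat.cast_mul, ← Nat.cast_mul, ZMod.natCast_eq_natCast_iff', Nat.mod_eq_of_lt,
    Nat.mod_eq_of_lt] at h
  · exact Nat.eq_of_mul_eq_mul_right hq h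
  · exact lt_of_lt_of_eq (Nat.mul_lt_mul_of_pos_right hj hq) hm
  · exact lt_of_lt_of_eq (Nat.mul_lt_mul_of_pos_right hi hq) hm

theorem gz_ne : gz m p ≠ 0 := fun h => by
  have := gz_inj hp hpm (i := 1) (j := 0) hp.one_lt hp.pos (by simp [h])
  omega

theorem exists_of_p_mul_eq_zero {x : ZMod m} (h : (p : ZMod m) * x = 0) :
    ∃ j < p, (j : ZMod m) * gz m p = x := by
  have hq : 0 < m / p := Nat.div_pos (Nat.le_of_dvd (Nat.pos_of_neZero m) hpm) hp.pos
  have hm : p * (m / p) = m := Nat.mul_div_cancel' hpm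
  have h1 : m ∣ p * x.val := by
    rw [← ZMod.natCast_eq_zero_iff, Nat.cast_mul, ZMod.natCast_zmod_val]; exact h
  obtain ⟨j, hj⟩ : m / p ∣ x.val :=
    Nat.dvd_of_mul_dvd_mul_left hp.pos (by rwa [Nat.mul_div_cancel' hpm])
  refine ⟨j, ?_, ?_⟩
  · by_contra hle
    have h2 : (m / p) * p ≤ (m / p) * j := Nat.mul_le_mul_left _ (not_lt.1 hle)
    have := ZMod.val_lt x
    rw [mul_comm (m / p) p, hm, ← hj] at h2
    omega
  · rw [gz, ← Nat.cast_mul, mul_comm, ← hj, ZMod.natCast_zmod_val]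

theorem fibre_sum (F : ZMod m → ℤ) (x : ZMod m) :
    ∑ i with (p : ZMod m) * i = (p : ZMod m) * x, F i = ∑ j ∈ range p, F (x + (j : ZMod m) * gz m p) := by
  refine Eq.symm (Finset.sum_bij (fun j _ => x + (j : ZMod m) * gz m p) (fun j _ => ?_) (fun i hi j hj h => ?_)
    (fun i hi => ?_) (fun _ _ => rfl))
  · rw [Finset.mem_filter]
    refine ⟨mem_univ _, ?_⟩
    linear_combination (j : ZMod m) * p_mul_gz hp hpm
  · rw [Finset.mem_range] at hi hj
    exact gz_inj hp hpm hi hj (add_left_cancel h)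
  · rw [Finset.mem_filter] at hi
    obtain ⟨j, hj, e⟩ := exists_of_p_mul_eq_zero hp hpm (x := i - x) (by linear_combination hi.2)
    exact ⟨j, Finset.mem_range.2 hj, by rw [e]; abel⟩

theorem fibre_dvd (F : ZMod m → ℤ) (x : ZMod m)
    (hF : ∀ j : ℕ, F (x + (j : ZMod m) * gz m p) = F x) :
    (p : ℤ) ∣ ∑ i with (p : ZMod m) * i = (p : ZMod m) * x, F i := by
  rw [fibre_sum hp hpm, Finset.sum_congr rfl fun j _ => hF j, Finset.sum_const, Finset.card_range,
    nsmul_eq_mul]
  exact dvd_mul_right _ _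

end Cyclic

namespace SR

variable {S : SR m} {p : ℕ} (hp : p.Prime) (hpm : p ∣ m) (P : Proj m p) (hR : S.Rat)

include hp hpm in
theorem e_mul_gz : P.e * gz m p = 0 := by
  obtain ⟨T, hT, he⟩ := P.ex
  obtain ⟨U, rfl⟩ : ∃ U, T = U + 1 := ⟨T - 1, by omega⟩
  rw [he, pow_succ, mul_assoc, p_mul_gz hp hpm, mul_zero]

include hp hpm hR in
/-- Periodicity where the `p`-part has order at least `p ^ 2`. -/
theorem rel_add_of_deep {x : ZMod m} (hx : (p : ZMod m) * ((1 - P.e) * x) ≠ 0) :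
    S.rel (r x) (r (x + gz m p)) := by
  classical
  obtain ⟨T, hT, he⟩ := P.ex
  set y := (1 - P.e) * x with hy
  have hz : (p : ZMod m) ^ T * ((p : ZMod m) * y) = 0 := by
    rw [← he, hy]; linear_combination (-(p : ZMod m) * x) * P.idem
  have hex : ∃ s, (p : ZMod m) ^ s * ((p : ZMod m) * y) = 0 := ⟨T, hz⟩
  obtain ⟨s, hs⟩ : ∃ s, Nat.find hex = s + 1 := by
    refine ⟨Nat.find hex - 1, ?_⟩
    have : Nat.find hex ≠ 0 := fun h0 => hx (by have := Nat.find_spec hex; rwa [h0, pow_zero, one_mul] at this)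
    omega
  have h0 := Nat.find_spec hex
  have hmin : (p : ZMod m) ^ s * ((p : ZMod m) * y) ≠ 0 := Nat.find_min hex (by omega)
  rw [hs, pow_succ', mul_assoc] at h0
  obtain ⟨j, hj, hw⟩ := exists_of_p_mul_eq_zero hp hpm h0
  have hj0 : j ≠ 0 := fun h => hmin (by rw [← hw, h]; simp)
  obtain ⟨j', k, hjj⟩ : ∃ j' k : ℕ, j * j' = 1 + p * k := by
    have hc : j.Coprime p := (hp.coprime_iff_not_dvd.2 fun hd => hj0 (Nat.eq_zero_of_dvd_of_lt hd hj)).symm
    obtain ⟨j', hj'⟩ := Nat.exists_mul_mod_eq_one_of_coprime hc hp.one_lt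
    exact ⟨j', j * j' / p, by have := Nat.mod_add_div (j * j') p; omega⟩
  set n : ZMod m := (j' : ZMod m) * (p : ZMod m) ^ s * p * (1 - P.e) with hn
  have hnil : IsNilpotent n := by
    refine ⟨T + 1, ?_⟩
    rw [hn, show (j' : ZMod m) * (p : ZMod m) ^ s * p * (1 - P.e) =
      ((j' : ZMod m) * (p : ZMod m) ^ s) * ((p : ZMod m) * (1 - P.e)) by ring, mul_pow, mul_pow, mul_pow,
      pow_succ (p : ZMod m) T, ← he, pow_succ (1 - P.e)]
    linear_combination (-((((j' : ZMod m) * (p : ZMod m) ^ s) ^ (T + 1)) * (p : ZMod m) *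
      (1 - P.e) ^ T)) * P.idem
  have hu : IsUnit (1 + n) := hnil.isUnit_one_add
  have hnx : n * x = gz m p := by
    have h1 : (j : ZMod m) * (j' : ZMod m) = 1 + p * k := by exact_mod_cast congrArg (Nat.cast : ℕ → ZMod m) hjj
    rw [hn]
    linear_combination (-(j' : ZMod m)) * hw + gz m p * h1 + (k : ZMod m) * p_mul_gz hp hpm
  have := hR hu.unit x
  rwa [IsUnit.unit_spec, add_mul, one_mul, hnx] at this

include hp hpm hR in
/-- The nonzero multiples of `z` translate by units fixing the part of order prime to `p`. -/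
theorem rel_scale {g : ℕ} (hg : ¬ p ∣ g) {d : ZMod m} (hd : P.e * d = d) :
    S.rel (r (d + gz m p)) (r (d + (g : ZMod m) * gz m p)) := by
  obtain ⟨T, hT, he⟩ := P.ex
  have hc : g.Coprime (p ^ T) := Nat.Coprime.pow_right _ (hp.coprime_iff_not_dvd.2 hg).symm
  obtain ⟨g', hg'⟩ := Nat.exists_mul_mod_eq_one_of_coprime hc (one_lt_pow₀ hp.one_lt hT.ne')
  have hgg : (g : ZMod m) * g' = 1 + P.e * ((g * g' / p ^ T : ℕ) : ZMod m) := by
    rw [he]
    have := Nat.mod_add_div (g * g') (p ^ T)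
    rw [hg'.2] at this
    exact_mod_cast congrArg (Nat.cast : ℕ → ZMod m) this.symm
  have h1 : ((g : ZMod m) * (1 - P.e) + P.e) * ((g' : ZMod m) * (1 - P.e) + P.e) = 1 := by
    linear_combination ((1 - P.e) ^ 2) * hgg + (((g * g' / p ^ T : ℕ) : ZMod m) * (P.e - 1)
      + 2 - (g : ZMod m) - (g' : ZMod m)) * P.idem
  have := hR ⟨_, _, h1, by rw [mul_comm]; exact h1⟩ (d + gz m p)
  have e2 : ((g : ZMod m) * (1 - P.e) + P.e) * (d + gz m p) = d + (g : ZMod m) * gz m p := by
    linear_combination (1 - (g : ZMod m)) * hd + (1 - (g : ZMod m)) * e_mul_gz hp hpm P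
  rwa [Units.val_mk, e2] at this

include hp hpm P hR in
theorem rel_gz {g : ℕ} (hg : ¬ p ∣ g) : S.rel (r (gz m p)) (r ((g : ZMod m) * gz m p)) := by
  have := rel_scale hp hpm P hR hg (d := 0) (mul_zero _)
  rwa [zero_add, zero_add] at this

include hp hpm hR in
theorem rel_const_deep {x : ZMod m} (hx : (p : ZMod m) * ((1 - P.e) * x) ≠ 0) (j : ℕ) :
    S.rel (r x) (r (x + (j : ZMod m) * gz m p)) := by
  induction j with
  | zero => simpa using S.eqv.refl _
  | succ j ih =>
    refine S.eqv.trans ih ?_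
    have := rel_add_of_deep hp hpm P hR (x := x + (j : ZMod m) * gz m p) (by
      intro h0; apply hx; linear_combination h0 - (1 - P.e) * (j : ZMod m) * p_mul_gz hp hpm)
    rw [Nat.cast_succ, add_mul, one_mul, ← add_assoc]
    exact this

/-- The power `u ^ p` vanishes modulo `p` away from the identity. -/
theorem dvd_pow_away (hp : p.Prime) (hpm : p ∣ m) (hp2 : p ≠ 2) (P : Proj m p) (hR : S.Rat)
    (u : S.El) {h : DihedralGroup m} (hh : h ≠ 1) : (p : ℤ) ∣ co (u ^ p) h := by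
  obtain ⟨i, hi, hne⟩ := no_free hp hp2 P hR hpm hh
  rw [inv_co (u ^ p) _ _ hi]
  have h1 := natCast_dvd_iff.1 (dvd_pa_pow_pw hp hp2 u) i
  rw [cf_sub] at h1
  refine (dvd_sub_left ?_).1 h1
  rw [cf_pw]
  by_cases hex : ∃ x, (p : ZMod m) * x = i
  · obtain ⟨x, rfl⟩ := hex
    refine fibre_dvd hp hpm _ x fun j => ?_
    refine (inv_co u _ _ (rel_const_deep hp hpm P hR (fun h0 => hne ?_) j)).symm
    linear_combination -h0
  · rw [Finset.sum_eq_zero fun x hx => absurd ⟨x, (Finset.mem_filter.1 hx).2⟩ hex]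
    exact dvd_zero _

/-- Periodicity away from the subgroup of order `p`. -/
theorem rel_add (hp : p.Prime) (hpm : p ∣ m) (P : Proj m p) (hR : S.Rat)
    (hc : p ≠ 2 ∨ P.e = 0) {x : ZMod m} (hx : (p : ZMod m) * x ≠ 0) :
    S.rel (r x) (r (x + gz m p)) := by
  classical
  by_cases hy : (p : ZMod m) * ((1 - P.e) * x) = 0
  swap
  · exact rel_add_of_deep hp hpm P hR hy
  rcases hc with hp2 | he
  swap
  · rw [he, sub_zero, one_mul] at hy; exact absurd hy hx
  set d := P.e * x with hd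
  have hed : P.e * d = d := by rw [hd, ← mul_assoc, P.idem]
  have hd0 : d ≠ 0 := fun h0 => hx (by linear_combination hy + (p : ZMod m) * h0)
  obtain ⟨j, hj, hjz⟩ := exists_of_p_mul_eq_zero hp hpm hy
  -- the class of `d` contains `d + z`
  have hclass : S.rel (r d) (r (d + gz m p)) := by
    set u : S.El := el (S.ind (r d)) (S.inv_ind _) with hu
    have hu' : ∀ i, cf (pa u) i = S.ind (r d) (r i) := fun i => congrFun (co_el _ _) (r i)
    have hpd : (p : ZMod m) * d ≠ 0 := fun h0 =>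
      hd0 (P.mul_inj hed (mul_zero _) (by rw [h0, mul_zero]))
    have h1 : (p : ℤ) ∣ co (u ^ p) (r ((p : ZMod m) * d)) :=
      dvd_pow_away hp hpm hp2 P hR u (fun e => hpd (DihedralGroup.r.inj (e.trans DihedralGroup.r_zero.symm)))
    have h2 := natCast_dvd_iff.1 (dvd_pa_pow_pw hp hp2 u) ((p : ZMod m) * d)
    rw [cf_sub] at h2
    have h3 := (dvd_sub_right (show (p : ℤ) ∣ cf (pa (u ^ p)) ((p : ZMod m) * d) from h1)).1 h2
    rw [cf_pw, fibre_sum hp hpm, ← Finset.sum_erase_add _ _ (Finset.mem_range.2 hp.pos)] at h3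
    by_contra hne
    rw [Finset.sum_eq_zero, zero_add, Nat.cast_zero, zero_mul, add_zero, hu', S.ind_self] at h3
    · have := Int.le_of_dvd one_pos h3
      have := hp.one_lt
      omega
    · intro g hg
      rw [Finset.mem_erase, Finset.mem_range] at hg
      rw [hu', ← (S.inv_ind _) _ _ (rel_scale hp hpm P hR (g := g)
        (fun hdv => hg.1 (Nat.eq_zero_of_dvd_of_lt hdv hg.2)) hed), S.ind_of_not hne]
  have hall : ∀ k : ℕ, S.rel (r d) (r (d + (k : ZMod m) * gz m p)) := by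
    intro k
    by_cases hk : p ∣ k
    · obtain ⟨q, rfl⟩ := hk
      rw [Nat.cast_mul, mul_comm (p : ZMod m), mul_assoc, p_mul_gz hp hpm, mul_zero, add_zero]
      exact S.eqv.refl _
    · exact S.eqv.trans hclass (rel_scale hp hpm P hR hk hed)
  have hx1 : x = d + (j : ZMod m) * gz m p := by rw [hjz, hd]; ring
  have h5 := hall (j + 1)
  rw [Nat.cast_succ, add_mul, one_mul, ← add_assoc, ← hx1] at h5
  have h6 := hall j
  rw [← hx1] at h6
  exact S.eqv.trans (S.eqv.symm h6) h5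

theorem rel_const (hp : p.Prime) (hpm : p ∣ m) (P : Proj m p) (hR : S.Rat)
    (hc : p ≠ 2 ∨ P.e = 0) {x : ZMod m} (hx : (p : ZMod m) * x ≠ 0) (j : ℕ) :
    S.rel (r x) (r (x + (j : ZMod m) * gz m p)) := by
  induction j with
  | zero => simpa using S.eqv.refl _
  | succ j ih =>
    refine S.eqv.trans ih ?_
    rw [Nat.cast_succ, add_mul, one_mul, ← add_assoc]
    exact rel_add hp hpm P hR hc fun h0 => hx (by linear_combination h0 - (j : ZMod m) * p_mul_gz hp hpm)

/-- A class other than the identity and the class of `z`. -/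
structure Other (S : SR m) (p : ℕ) (h : DihedralGroup m) : Prop where
  ne_one : h ≠ 1
  ne_z : ¬ S.rel h (r (gz m p))

theorem Other.ind_small (hp : p.Prime) (hpm : p ∣ m) (P : Proj m p) (hR : S.Rat)
    {h : DihedralGroup m} (H : Other S p h) {i : ZMod m} (hi : (p : ZMod m) * i = 0) :
    S.ind h (r i) = 0 := by
  obtain ⟨j, hj, rfl⟩ := exists_of_p_mul_eq_zero hp hpm hi
  refine S.ind_of_not fun hr => ?_
  rcases Nat.eq_zero_or_pos j with rfl | hj0
  · rw [Nat.cast_zero, zero_mul, DihedralGroup.r_zero] at hr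
    exact H.ne_one (S.one_rel_iff.1 hr)
  · exact H.ne_z (S.eqv.trans hr (S.eqv.symm
      (rel_gz hp hpm P hR fun hd => hj0.ne' (Nat.eq_zero_of_dvd_of_lt hd hj))))

theorem Other.periodic (hp : p.Prime) (hpm : p ∣ m) (P : Proj m p) (hR : S.Rat)
    (hc : p ≠ 2 ∨ P.e = 0) {h : DihedralGroup m} (H : Other S p h) (i : ZMod m) (j : ℕ) :
    S.ind h (r (i + (j : ZMod m) * gz m p)) = S.ind h (r i) := by
  by_cases hi : (p : ZMod m) * i = 0
  · rw [H.ind_small hp hpm P hR hi, H.ind_small hp hpm P hR]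
    linear_combination hi + (j : ZMod m) * p_mul_gz hp hpm
  · exact (S.inv_ind h _ _ (rel_const hp hpm P hR hc hi j)).symm

theorem Other.dvd_eps (hp : p.Prime) (hpm : p ∣ m) (P : Proj m p) (hR : S.Rat)
    (hc : p ≠ 2 ∨ P.e = 0) {h : DihedralGroup m} (H : Other S p h) :
    (p : ℤ) ∣ ∑ i, S.ind h (r i) := by
  classical
  rw [← Finset.sum_fiberwise Finset.univ (fun i : ZMod m => (p : ZMod m) * i)]
  refine Finset.dvd_sum fun y _ => ?_
  by_cases hex : ∃ x, (p : ZMod m) * x = y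
  · obtain ⟨x, rfl⟩ := hex
    exact fibre_dvd hp hpm _ x fun j => H.periodic hp hpm P hR hc x j
  · rw [Finset.sum_eq_zero fun x hx => absurd ⟨x, (Finset.mem_filter.1 hx).2⟩ hex]
    exact dvd_zero _

theorem Other.dvd_wt (hp : p.Prime) (hpm : p ∣ m) (hp2 : p ≠ 2) (P : Proj m p) (hR : S.Rat)
    {h : DihedralGroup m} (H : Other S p h) :
    (p : ℤ) ∣ wt (el (S.ind h) (S.inv_ind h)) := by
  set u := el (S.ind h) (S.inv_ind h) with hu
  have hdvd : (p : S.El) ∣ u ^ p := by
    refine dvd_of_pa (natCast_dvd_iff.2 fun i => ?_)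
    by_cases hi : i = 0
    · subst hi
      have h2 := natCast_dvd_iff.1 (dvd_pa_pow_pw hp hp2 u) 0
      rw [cf_sub, cf_pw, ← mul_zero (p : ZMod m), fibre_sum hp hpm, Finset.sum_eq_zero, sub_zero] at h2
      · rwa [mul_zero] at h2
      · intro j _
        rw [zero_add]
        exact (congrFun (co_el _ _) (r _)).trans (H.ind_small hp hpm P hR
          (by linear_combination (j : ZMod m) * p_mul_gz hp hpm))
    · exact dvd_pow_away hp hpm hp2 P hR u (h := r i) (fun e => hi (DihedralGroup.r.inj (e.trans DihedralGroup.r_zero.symm)))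
  have h1 := map_dvd wt hdvd
  rw [map_natCast, map_pow] at h1
  exact (Nat.prime_iff_prime_int.1 hp).dvd_of_dvd_pow h1

end SR

end Cfsg.Agent.DihBGroup
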