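import Cfsg.Agent.DihBGroup.Period
import Mathlib.Algebra.Order.Chebyshev

/-!
A rational primitive S-ring over a dihedral group has rank at most three, and the parameters in rank
three.
-/

set_option autoImplicit false
set_option linter.unusedSectionVars false

namespace Cfsg.Agent.DihBGroup

open Finset DihedralGroup

variable {m : ℕ} [NeZero m]

theorem cf_intCast (n : ℤ) (i : ZMod m) : cf (n : GR m) i = if i = 0 then n else 0 := by
  cases n with
  | ofNat a => simp [cf_natCast]
  | negSucc a =>
    rw [Int.cast_negSucc]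
    have h := cf_sub (0 : GR m) ((a + 1 : ℕ) : GR m) i
    rw [zero_sub] at h
    rw [h, cf_natCast, cf_zero, Int.negSucc_eq]
    split <;> simp

/-- `1 - z`. -/
noncomputable def wz (z : ZMod m) : GR m := 1 - AddMonoidAlgebra.single z 1

theorem cf_wz_mul (z : ZMod m) (A : GR m) (i : ZMod m) :
    cf (wz z * A) i = cf A i - cf A (i - z) := by
  classical
  rw [wz, sub_mul, one_mul, cf_sub, cf_mul]
  simp [cf_single, ite_mul]

theorem wz_intCast {z : ZMod m} (hz : z ≠ 0) {n : ℤ} (h : wz z * (n : GR m) = 0) : n = 0 := by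
  have h0 := congrArg (fun A => cf A 0) h
  simpa [cf_wz_mul, cf_intCast, hz] using h0

namespace SR

variable {S : SR m} {p : ℕ} (hp : p.Prime) (hpm : p ∣ m) (P : Proj m p) (hR : S.Rat)
  (hc : p ≠ 2 ∨ P.e = 0)

/-- The element of a class. -/
noncomputable def cl (S : SR m) (h : DihedralGroup m) : S.El := el (S.ind h) (S.inv_ind h)

theorem co_cl (h x : DihedralGroup m) : co (cl S h) x = S.ind h x := congrFun (co_el _ _) x

theorem co_cl_mul (h k x : DihedralGroup m) :
    co (cl S h * cl S k) x = conv (S.ind h) (S.ind k) x :=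
  congrFun ((congrArg co (co_mul _ _ _ _)).trans (co_el _ _)) x

/-- The scalar `ρ`. -/
noncomputable def rho' (S : SR m) (p : ℕ) (h k : DihedralGroup m) : ℤ :=
  conv (S.ind h) (S.ind k) 1 - conv (S.ind h) (S.ind k) (r (gz m p))

theorem conv_one (h k : DihedralGroup m) :
    conv (S.ind h) (S.ind k) 1 = ∑ x, S.ind h x * S.ind k x :=
  Finset.sum_congr rfl fun x _ => by rw [mul_one, S.symm_fun (S.inv_ind k)]

theorem conv_one_of_not {h k : DihedralGroup m} (hne : ¬ S.rel h k) :
    conv (S.ind h) (S.ind k) 1 = 0 := by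
  rw [conv_one]
  refine Finset.sum_eq_zero fun x _ => ?_
  by_cases hx : S.rel h x
  · rw [S.ind_of_not fun hk => hne (S.eqv.trans hx (S.eqv.symm hk)), mul_zero]
  · rw [S.ind_of_not hx, zero_mul]

theorem conv_one_self (h : DihedralGroup m) : conv (S.ind h) (S.ind h) 1 = ∑ x, S.ind h x := by
  rw [conv_one]
  refine Finset.sum_congr rfl fun x _ => ?_
  by_cases hx : S.rel h x
  · rw [S.ind_of hx, one_mul]
  · rw [S.ind_of_not hx, zero_mul]

theorem conv_nonneg (h k x : DihedralGroup m) : 0 ≤ conv (S.ind h) (S.ind k) x :=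
  Finset.sum_nonneg fun _ _ => mul_nonneg (S.ind_nonneg _ _) (S.ind_nonneg _ _)

theorem ind_le_one (h x : DihedralGroup m) : S.ind h x ≤ 1 := by
  rw [ind]; split <;> norm_num

theorem rho_nonpos {h k : DihedralGroup m} (hne : ¬ S.rel h k) : rho' S p h k ≤ 0 := by
  rw [rho', conv_one_of_not hne, zero_sub, neg_nonpos]
  exact conv_nonneg _ _ _

theorem rho_comm (h k : DihedralGroup m) : rho' S p h k = rho' S p k h := by
  rw [rho', rho', S.conv_comm' (S.inv_ind h) (S.inv_ind k)]

include hp hpm in
theorem rho_pos {h : DihedralGroup m} (H : Other S p h) : 0 < rho' S p h h := by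
  set f := S.ind h with hf
  have hle : ∀ t, conv f f t ≤ ∑ x, f x := fun t => Finset.sum_le_sum fun x _ =>
    mul_le_of_le_one_right (S.ind_nonneg _ _) (ind_le_one _ _)
  rw [rho', conv_one_self, ← hf, sub_pos]
  refine lt_of_le_of_ne (hle _) fun he => ?_
  let X : Subgroup (DihedralGroup m) :=
    { carrier := {t | ∀ x, f (t * x) = f x}
      mul_mem' := fun {a b} ha hb x => by rw [mul_assoc, ha, hb]
      one_mem' := fun x => by rw [one_mul]
      inv_mem' := fun {a} ha x => by rw [← ha (a⁻¹ * x), mul_inv_cancel_left] }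
  have hiff : ∀ t, t ∈ X ↔ conv f f t = ∑ x, f x := by
    intro t
    have e : ∀ x, f (x⁻¹ * t) = f (t⁻¹ * x) := fun x => by
      rw [hf, ← S.symm_fun (S.inv_ind h) (t⁻¹ * x)]; simp
    constructor
    · intro ht
      refine Finset.sum_congr rfl fun x _ => ?_
      rw [e, ← ht (t⁻¹ * x), mul_inv_cancel_left]
      by_cases hx : S.rel h x <;> simp [hf, S.ind_of, S.ind_of_not, hx]
    · intro ht x
      have h2 : ∑ y, f (t⁻¹ * y) = ∑ y, f y :=
        Fintype.sum_equiv (Equiv.mulLeft t⁻¹) _ _ fun _ => rfl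
      have h3 : ∀ y, f y * f (t⁻¹ * y) = f (t⁻¹ * y) := by
        have := (Finset.sum_eq_sum_iff_of_le (fun y _ => mul_le_of_le_one_left
          (S.ind_nonneg h (t⁻¹ * y)) (ind_le_one h y))).1 (by
            rw [h2, ← ht]; exact Finset.sum_congr rfl fun y _ => by rw [e])
        exact fun y => this y (mem_univ y)
      have h4 : ∀ y, f y * f (t⁻¹ * y) = f y := by
        have := (Finset.sum_eq_sum_iff_of_le (fun y _ => mul_le_of_le_one_right
          (S.ind_nonneg h y) (ind_le_one h (t⁻¹ * y)))).1 (by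
            rw [← ht]; exact Finset.sum_congr rfl fun y _ => by rw [e])
        exact fun y => this y (mem_univ y)
      have := (h4 (t * x)).symm.trans (h3 (t * x))
      rwa [inv_mul_cancel_left] at this
  rcases S.prim X (fun a b hab ha => by
    rw [hiff] at ha ⊢; rwa [← S.closed (S.inv_ind h) (S.inv_ind h) a b hab]) with e | e
  · have : r (gz m p) ∈ X := (hiff _).2 he
    rw [e, Subgroup.mem_bot] at this
    exact gz_ne hp hpm (DihedralGroup.r.inj (this.trans DihedralGroup.r_zero.symm))
  · have : h ∈ X := by rw [e]; exact Subgroup.mem_top h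
    have := this 1
    rw [mul_one, hf, S.ind_self, S.ind_of_not fun h1 => H.ne_one (S.one_rel_iff.1 h1)] at this
    exact one_ne_zero this

include hp hpm P hR hc in
/-- After removing a scalar the rotation part is periodic. -/
theorem wz_pa (u : S.El) :
    wz (gz m p) * pa u = wz (gz m p) * ((co u 1 - co u (r (gz m p)) : ℤ) : GR m) := by
  rw [← sub_eq_zero, ← mul_sub]
  refine gr_ext fun i => ?_
  rw [cf_wz_mul, cf_zero, sub_eq_zero, cf_sub, cf_sub, cf_intCast, cf_intCast]
  have hco : ∀ i, cf (pa u) i = co u (r i) := fun _ => rfl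
  have hz : ∀ j : ℕ, (co u (r ((j : ZMod m) * gz m p)) -
      if (j : ZMod m) * gz m p = 0 then co u 1 - co u (r (gz m p)) else 0) = co u (r (gz m p)) := by
    intro j
    split
    · rename_i h0
      rw [h0, DihedralGroup.r_zero]; ring
    · rename_i h0
      rw [sub_zero]
      refine (inv_co u _ _ (rel_gz hp hpm P hR fun hd => h0 ?_)).symm
      obtain ⟨q, rfl⟩ := hd
      rw [Nat.cast_mul, mul_comm (p : ZMod m), mul_assoc, p_mul_gz hp hpm, mul_zero]
  rw [hco, hco]
  by_cases hi : (p : ZMod m) * i = 0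
  · obtain ⟨j, -, rfl⟩ := exists_of_p_mul_eq_zero hp hpm hi
    obtain ⟨j', -, hj'⟩ := exists_of_p_mul_eq_zero hp hpm
      (x := (j : ZMod m) * gz m p - gz m p) (by linear_combination hi - p_mul_gz hp hpm)
    rw [hz j, ← hj', hz j']
  · have hi' : (p : ZMod m) * (i - gz m p) ≠ 0 := fun h0 =>
      hi (by linear_combination h0 + p_mul_gz hp hpm)
    have h1 := inv_co u _ _ (rel_add hp hpm P hR hc hi')
    rw [sub_add_cancel] at h1
    rw [if_neg fun h0 => hi (by rw [h0, mul_zero]), if_neg fun h0 => hi' (by rw [h0, mul_zero]), h1]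

include hp hpm P hR hc in
theorem wz_pa_other {h : DihedralGroup m} (H : Other S p h) :
    wz (gz m p) * pa (cl S h) = 0 := by
  refine gr_ext fun i => ?_
  rw [cf_wz_mul, cf_zero, sub_eq_zero]
  have hco : ∀ i, cf (pa (cl S h)) i = S.ind h (r i) := fun i => co_cl h (r i)
  rw [hco, hco]
  have := H.periodic hp hpm P hR hc (i - gz m p) 1
  rwa [Nat.cast_one, one_mul, sub_add_cancel] at this

include hp hpm P hR hc in
theorem wz_pb {h : DihedralGroup m} (H : Other S p h) (k : DihedralGroup m) :
    wz (gz m p) * (sg (pb (cl S h)) * pb (cl S k)) = wz (gz m p) * (rho' S p h k : GR m) := by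
  have h1 := wz_pa hp hpm P hR hc (cl S h * cl S k)
  rw [pa_mul, mul_add, ← mul_assoc, wz_pa_other hp hpm P hR hc H, zero_mul, zero_add, co_cl_mul,
    co_cl_mul] at h1
  exact h1

include hp hpm P hR hc in
theorem rho_rank_one {a b c d : DihedralGroup m} (Ha : Other S p a) (Hc : Other S p c) :
    rho' S p a b * rho' S p c d = rho' S p a d * rho' S p c b := by
  have key : ∀ b d, wz (gz m p) * ((sg (pb (cl S a)) * pb (cl S b)) *
      (sg (pb (cl S c)) * pb (cl S d))) =
      wz (gz m p) * ((rho' S p a b * rho' S p c d : ℤ) : GR m) := by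
    intro b d
    rw [← mul_assoc, wz_pb hp hpm P hR hc Ha b,
      mul_comm (wz _) (rho' S p a b : GR m), mul_assoc, wz_pb hp hpm P hR hc Hc d, Int.cast_mul]
    ring
  refine sub_eq_zero.1 (wz_intCast (gz_ne hp hpm) ?_)
  rw [Int.cast_sub, mul_sub, ← key, ← key, ← mul_sub]
  ring

include hp hpm P hR hc in
theorem rho_neg {a b : DihedralGroup m} (Ha : Other S p a) (Hb : Other S p b) (hne : ¬ S.rel a b) :
    rho' S p a b < 0 := by
  refine lt_of_le_of_ne (rho_nonpos hne) fun h0 => ?_
  have := rho_rank_one hp hpm P hR hc (b := a) (d := b) Ha Hb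
  rw [h0, zero_mul] at this
  exact (mul_pos (rho_pos hp hpm Ha) (rho_pos hp hpm Hb)).ne' this

include hp hpm P hR hc in
theorem at_most_two {a b c : DihedralGroup m} (Ha : Other S p a) (Hb : Other S p b)
    (Hc : Other S p c) (hab : ¬ S.rel a b) (hac : ¬ S.rel a c) (hbc : ¬ S.rel b c) : False := by
  have := rho_rank_one hp hpm P hR hc (b := b) (d := c) Ha Hc
  have h1 := rho_neg hp hpm P hR hc Ha Hb hab
  have h2 := rho_neg hp hpm P hR hc Ha Hc hac
  have h3 := rho_neg hp hpm P hR hc Hc Hb fun h => hbc (S.eqv.symm h)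
  have h4 := rho_pos hp hpm Hc
  nlinarith

include hp hpm in
/-- Some product with the class of `z` is nonzero at `z`. -/
theorem exists_conv_z (hex : ∃ h, Other S p h) :
    ∃ h, Other S p h ∧ conv (S.ind h) (S.ind (r (gz m p))) (r (gz m p)) ≠ 0 := by
  by_contra hno
  push Not at hno
  set t := r (gz m p) with ht
  let X : Subgroup (DihedralGroup m) :=
    { carrier := {x | x = 1 ∨ S.rel t x}
      mul_mem' := by
        rintro a b (rfl | ha) (rfl | hb)
        · exact Or.inl (mul_one _)
        · exact Or.inr (by rwa [one_mul])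
        · exact Or.inr (by rwa [mul_one])
        · by_contra hab
          simp only [Set.mem_setOf_eq, not_or] at hab
          have H : Other S p (a * b) := ⟨hab.1, fun h => hab.2 (S.eqv.symm h)⟩
          have h0 := hno _ H
          rw [S.closed (S.inv_ind _) (S.inv_ind _) _ _ ha] at h0
          have h1 : (0 : ℤ) < conv (S.ind (a * b)) (S.ind t) a := by
            refine Finset.sum_pos' (fun x _ => mul_nonneg (S.ind_nonneg _ _) (S.ind_nonneg _ _))
              ⟨a * b, mem_univ _, ?_⟩
            rw [S.ind_self, one_mul, mul_inv_rev, mul_assoc, inv_mul_cancel, mul_one,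
              S.symm_fun (S.inv_ind t), S.ind_of hb]
            norm_num
          exact h1.ne' h0
      one_mem' := Or.inl rfl
      inv_mem' := by
        rintro a (rfl | ha)
        · exact Or.inl inv_one
        · exact Or.inr (S.eqv.trans ha (S.rel_self_inv a)) }
  rcases S.prim X (fun a b hab ha => by
    rcases ha with rfl | ha
    · exact Or.inl (S.one_class hab)
    · exact Or.inr (S.eqv.trans ha hab)) with e | e
  · have : t ∈ X := Or.inr (S.eqv.refl _)
    rw [e, Subgroup.mem_bot] at this
    exact gz_ne hp hpm (DihedralGroup.r.inj (this.trans DihedralGroup.r_zero.symm))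
  · obtain ⟨h, H⟩ := hex
    have : h ∈ X := by rw [e]; exact Subgroup.mem_top h
    rcases this with h1 | h1
    · exact H.ne_one h1
    · exact H.ne_z (S.eqv.symm h1)

include hp hpm P hR hc in
theorem at_most_one {a b : DihedralGroup m} (Ha : Other S p a) (Hb : Other S p b) : S.rel a b := by
  classical
  by_contra hab
  set t := r (gz m p) with ht
  set w := wz (gz m p) with hw
  have hsum : ∀ i, S.ind a (sr i) + S.ind b (sr i) + S.ind t (sr i) = 1 := by
    intro i
    have h1 : (sr i : DihedralGroup m) ≠ 1 := by intro h; cases h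
    by_cases ht' : S.rel t (sr i)
    · rw [S.ind_of ht', S.ind_of_not fun h => Ha.ne_z (S.eqv.trans h (S.eqv.symm ht')),
        S.ind_of_not fun h => Hb.ne_z (S.eqv.trans h (S.eqv.symm ht'))]
      ring
    · have Hi : Other S p (sr i) := ⟨h1, fun h => ht' (S.eqv.symm h)⟩
      by_cases hai : S.rel a (sr i)
      · rw [S.ind_of hai, S.ind_of_not fun h => hab (S.eqv.trans hai (S.eqv.symm h)),
          S.ind_of_not ht']
        ring
      · have hbi : S.rel b (sr i) := by
          by_contra hbi
          exact at_most_two hp hpm P hR hc Ha Hb Hi hab hai hbi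
        rw [S.ind_of_not hai, S.ind_of hbi, S.ind_of_not ht']
        ring
  have hB : pb (cl S a) + pb (cl S b) + pb (cl S t) = ofFun fun _ => 1 := gr_ext fun i => by
    rw [cf_add, cf_add, cf_ofFun, ← hsum i, ← co_cl a, ← co_cl b, ← co_cl t]; rfl
  have hwC : w * ofFun (fun _ => (1 : ℤ)) = 0 := gr_ext fun i => by simp [hw, cf_wz_mul]
  have key : ∀ a', Other S p a' →
      rho' S p a' a + rho' S p a' b + rho' S p a' t = 0 := by
    intro a' Ha'
    refine wz_intCast (gz_ne hp hpm) ?_
    rw [Int.cast_add, Int.cast_add, mul_add, mul_add, ← wz_pb hp hpm P hR hc Ha', ←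
      wz_pb hp hpm P hR hc Ha', ← wz_pb hp hpm P hR hc Ha', ← mul_add, ← mul_add, ← mul_add,
      ← mul_add, hB, mul_left_comm, ← hw, hwC, mul_zero]
  have hT : ∀ a', Other S p a' → rho' S p a' t = -conv (S.ind a') (S.ind t) t := fun a' Ha' => by
    rw [rho', conv_one_of_not fun h => Ha'.ne_z h, zero_sub]
  have h1 := key a Ha
  have h2 := key b Hb
  rw [rho_comm b a] at h2
  rw [hT a Ha] at h1
  rw [hT b Hb] at h2
  have h3 := rho_rank_one hp hpm P hR hc (b := b) (d := a) Ha Hb
  rw [rho_comm b a] at h3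
  have hn := rho_neg hp hpm P hR hc Ha Hb hab
  have p1 := rho_pos hp hpm Ha
  have p2 := rho_pos hp hpm Hb
  obtain ⟨h, H, hne⟩ := exists_conv_z hp hpm ⟨a, Ha⟩
  have ha0 := conv_nonneg (S := S) a t t
  have hb0 := conv_nonneg (S := S) b t t
  have za : conv (S.ind a) (S.ind t) t = 0 := by nlinarith
  have zb : conv (S.ind b) (S.ind t) t = 0 := by nlinarith
  by_cases hah : S.rel a h
  · refine hne ?_
    rwa [show S.ind h = S.ind a from funext fun x => by
      by_cases hx : S.rel a x
      · rw [S.ind_of hx, S.ind_of (S.eqv.trans (S.eqv.symm hah) hx)]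
      · rw [S.ind_of_not hx, S.ind_of_not fun h' => hx (S.eqv.trans hah h')]]
  · have hbh : S.rel b h := by
      by_contra hbh
      exact at_most_two hp hpm P hR hc Ha Hb H hab hah hbh
    refine hne ?_
    rwa [show S.ind h = S.ind b from funext fun x => by
      by_cases hx : S.rel b x
      · rw [S.ind_of hx, S.ind_of (S.eqv.trans (S.eqv.symm hbh) hx)]
      · rw [S.ind_of_not hx, S.ind_of_not fun h' => hx (S.eqv.trans hbh h')]]

include hp hpm P hR hc in
/-- In rank three the class is a difference set. -/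
theorem square {h : DihedralGroup m} (H : Other S p h) :
    ∃ μ : ℤ, μ < ∑ x, S.ind h x ∧ μ = conv (S.ind h) (S.ind h) (r (gz m p)) ∧
      ∀ x, conv (S.ind h) (S.ind h) x =
        μ + (if x = 1 then (∑ x, S.ind h x) - μ else 0) := by
  classical
  set t := r (gz m p) with ht
  set w := wz (gz m p) with hw
  set lam := conv (S.ind h) (S.ind h) h with hl
  set μ := conv (S.ind h) (S.ind h) t with hμ
  have hpos := rho_pos hp hpm H
  rw [rho', conv_one_self, ← ht, ← hμ, sub_pos] at hpos
  have hcases : ∀ x, x ≠ 1 → conv (S.ind h) (S.ind h) x = μ + (lam - μ) * S.ind h x := by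
    intro x hx
    by_cases hr : S.rel h x
    · rw [S.ind_of hr, ← S.closed (S.inv_ind h) (S.inv_ind h) _ _ hr, ← hl]; ring
    · rw [S.ind_of_not hr]
      by_cases hxt : S.rel x t
      · rw [S.closed (S.inv_ind h) (S.inv_ind h) _ _ hxt, ← hμ]; ring
      · exact absurd (at_most_one hp hpm P hR hc H ⟨hx, hxt⟩) hr
  have hlam : lam = μ := by
    set u := cl S h with hu
    have hb : pb (u * u) = (μ : GR m) * ofFun (fun _ => 1) + ((lam - μ : ℤ) : GR m) * pb u := by
      refine gr_ext fun i => ?_
      have e : ∀ (n : ℤ) (A : GR m), cf ((n : GR m) * A) i = n * cf A i := fun n A => by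
        rw [cf_mul]; simp [cf_intCast, ite_mul]
      rw [cf_add, e, e, cf_ofFun, mul_one]
      refine (co_cl_mul h h (sr i)).trans ?_
      rw [hcases (sr i) (by intro hh; cases hh)]
      congr 2
      exact (co_cl h (sr i)).symm
    have hwC : w * ofFun (fun _ => (1 : ℤ)) = 0 := gr_ext fun i => by simp [hw, cf_wz_mul]
    have h0 : w * pb (u * u) = 0 := by
      rw [pb_mul, mul_add, ← mul_assoc, mul_comm w (pb u), mul_assoc,
        wz_pa_other hp hpm P hR hc H, mul_zero, zero_add, ← mul_assoc,
        wz_pa_other hp hpm P hR hc H, zero_mul]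
    rw [hb, mul_add, mul_left_comm, hwC, mul_zero, zero_add] at h0
    have h2 := congrArg (fun A => sg (pb u) * A) h0
    rw [mul_zero, show sg (pb u) * (w * (((lam - μ : ℤ) : GR m) * pb u)) =
      ((lam - μ : ℤ) : GR m) * (w * (sg (pb u) * pb u)) by ring, hw, hu,
      wz_pb hp hpm P hR hc H, ← mul_left_comm, ← Int.cast_mul] at h2
    rcases mul_eq_zero.1 (wz_intCast (gz_ne hp hpm) h2) with e | e
    · exact sub_eq_zero.1 e
    · exact absurd e (rho_pos hp hpm H).ne'
  refine ⟨μ, hpos, rfl, fun x => ?_⟩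
  by_cases hx : x = 1
  · subst hx; rw [if_pos rfl, conv_one_self]; ring
  · rw [if_neg hx, hcases x hx, hlam]; ring

end SR

end Cfsg.Agent.DihBGroup
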