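import Cfsg.Agent.DihBGroup.Fusion
import Mathlib.GroupTheory.GroupAction.Primitive
import Mathlib.GroupTheory.GroupAction.MultipleTransitivity

/-!
The S-ring of a primitive group with a regular dihedral subgroup.
-/

set_option autoImplicit false
set_option linter.unusedSectionVars false

namespace Cfsg.Agent.DihBGroup

open Finset DihedralGroup MulAction

variable {G Ω : Type*} [Group G] [Finite G] [MulAction G Ω] {m : ℕ} [NeZero m]
  (ι : DihedralGroup m →* G) (a : Ω) (hbij : Function.Bijective fun d => ι d • a)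

/-- Orbits of the point stabiliser. -/
def orel (d d' : DihedralGroup m) : Prop := ∃ g ∈ stabilizer G a, g • ι d • a = ι d' • a

theorem orel_eqv : Equivalence (orel ι a) where
  refl d := ⟨1, one_mem _, one_smul _ _⟩
  symm := by
    rintro d d' ⟨g, hg, e⟩
    exact ⟨g⁻¹, inv_mem hg, by rw [← e, inv_smul_smul]⟩
  trans := by
    rintro d d' d'' ⟨g, hg, e⟩ ⟨g', hg', e'⟩
    exact ⟨g' * g, mul_mem hg' hg, by rw [mul_smul, e, e']⟩

variable {ι a}

theorem exists_move {d d' : DihedralGroup m} {g : G} (e : g • ι d • a = ι d' • a) :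
    (ι d')⁻¹ * g * ι d ∈ stabilizer G a := by
  rw [mem_stabilizer_iff, mul_smul, mul_smul, e, inv_smul_smul]

include hbij in
theorem orel_closed {f g : DihedralGroup m → ℤ} (hf : ∀ x y, orel ι a x y → f x = f y)
    (hg : ∀ x y, orel ι a x y → g x = g y) {h h' : DihedralGroup m} (e : orel ι a h h') :
    conv f g h = conv f g h' := by
  obtain ⟨u, hu, hue⟩ := e
  have hex : ∀ x, ∃ x', u • ι x • a = ι x' • a := fun x => by
    obtain ⟨x', hx'⟩ := hbij.2 (u • ι x • a)
    exact ⟨x', hx'.symm⟩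
  choose φ hφ using hex
  have hinj : Function.Injective φ := fun x y exy => hbij.1 (by
    have h1 := hφ x
    rw [exy, ← hφ y] at h1
    exact smul_left_cancel u h1)
  refine Fintype.sum_equiv (Equiv.ofBijective φ (Finite.injective_iff_bijective.1 hinj)) _ _ fun x => ?_
  simp only [Equiv.ofBijective_apply]
  rw [hf x (φ x) ⟨u, hu, hφ x⟩, hg (x⁻¹ * h) ((φ x)⁻¹ * h') ⟨_, exists_move (hφ x), ?_⟩]
  rw [map_mul, map_mul, map_inv, map_inv, mul_smul, mul_smul, mul_smul, mul_smul, smul_inv_smul,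
    hue]

include hbij in
theorem orel_one {h : DihedralGroup m} (e : orel ι a 1 h) : h = 1 := by
  obtain ⟨g, hg, e⟩ := e
  rw [map_one, one_smul, mem_stabilizer_iff.1 hg] at e
  exact hbij.1 (show ι h • a = ι 1 • a by rw [← e, map_one, one_smul])

theorem orel_inv {d d' : DihedralGroup m} (e : orel ι a d d') : orel ι a d⁻¹ d'⁻¹ := by
  obtain ⟨g, hg, e⟩ := e
  refine ⟨_, exists_move e, ?_⟩
  rw [mul_smul, mul_smul, map_inv, map_inv, smul_inv_smul, mem_stabilizer_iff.1 hg]

include hbij in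
theorem orel_prim [IsPreprimitive G Ω] [Nontrivial Ω] (X : Subgroup (DihedralGroup m))
    (hX : ∀ x y, orel ι a x y → x ∈ X → y ∈ X) : X = ⊥ ∨ X = ⊤ := by
  have hst : ∀ g ∈ stabilizer G a, ∀ x ∈ X, ∃ x' ∈ X, g • ι x • a = ι x' • a := fun g hg x hx => by
    obtain ⟨x', hx'⟩ := hbij.2 (g • ι x • a)
    exact ⟨x', hX x x' ⟨g, hg, hx'.symm⟩ hx, hx'.symm⟩
  let M : Submonoid G :=
    { carrier := {g | ∃ x ∈ X, g • a = ι x • a}
      one_mem' := ⟨1, one_mem _, by rw [map_one]⟩
      mul_mem' := by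
        rintro g₁ g₂ ⟨y, hy, e1⟩ ⟨x, hx, e2⟩
        obtain ⟨x', hx', e3⟩ := hst ((ι y)⁻¹ * g₁)
          (by rw [mem_stabilizer_iff, mul_smul, e1, inv_smul_smul]) x hx
        refine ⟨y * x', mul_mem hy hx', ?_⟩
        rw [mul_smul, inv_smul_eq_iff] at e3
        rw [mul_smul, e2, e3, map_mul, mul_smul] }
  let H : Subgroup G :=
    { M with
      inv_mem' := fun {g} hg => by
        obtain ⟨n, hn⟩ := (isOfFinOrder_of_finite g).mem_powers_iff_mem_zpowers.2
          (inv_mem (Subgroup.mem_zpowers g))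
        rw [← hn]
        exact pow_mem (show g ∈ M from hg) n }
  have hle : stabilizer G a ≤ H := fun g hg => ⟨1, one_mem _, by
    rw [map_one, one_smul]; exact mem_stabilizer_iff.1 hg⟩
  rcases eq_or_lt_of_le hle with e | e
  · refine Or.inl ((Subgroup.eq_bot_iff_forall _).2 fun x hx => ?_)
    have : ι x ∈ H := ⟨x, hx, rfl⟩
    rw [← e, mem_stabilizer_iff] at this
    exact hbij.1 (show ι x • a = ι 1 • a by rw [map_one, one_smul, this])
  · refine Or.inr ((Subgroup.eq_top_iff' _).2 fun d => ?_)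
    have htop := (isCoatom_stabilizer_iff_preprimitive G a).2 ‹IsPreprimitive G Ω›
    have : ι d ∈ H := by rw [htop.2 H e]; exact Subgroup.mem_top _
    obtain ⟨x, hx, e'⟩ := this
    rwa [hbij.1 e']

include hbij in
theorem stabilizer_transitive [IsPreprimitive G Ω] [Nontrivial Ω] (hm : 2 ≤ m) {b c : Ω}
    (hb : b ≠ a) (hc : c ≠ a) : ∃ g ∈ stabilizer G a, g • b = c := by
  let S : SR m :=
    { two_le := hm
      rel := orel ι a
      eqv := orel_eqv ι a
      one_class := orel_one hbij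
      rel_inv := orel_inv
      closed := fun hf hg _ _ e => orel_closed hbij hf hg e
      prim := orel_prim hbij }
  obtain ⟨x, rfl⟩ := hbij.2 b
  obtain ⟨y, rfl⟩ := hbij.2 c
  exact S.rank_two_all (fun e => hb (by simp [e])) (fun e => hc (by simp [e]))

end Cfsg.Agent.DihBGroup
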