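import Cfsg.Agent.DihBGroup.GroupRing
import Mathlib.GroupTheory.SpecificGroups.Dihedral
import Mathlib.LinearAlgebra.Matrix.Notation
import Mathlib.Data.Matrix.Mul

/-!
Primitive S-rings over a dihedral group.
-/

set_option autoImplicit false
set_option linter.unusedSectionVars false

namespace Cfsg.Agent.DihBGroup

open Finset DihedralGroup

variable {m : ℕ} [NeZero m]

/-- Convolution on a finite group. -/
def conv (f g : DihedralGroup m → ℤ) (h : DihedralGroup m) : ℤ := ∑ x, f x * g (x⁻¹ * h)

/-- The classes of a primitive S-ring over a dihedral group. -/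
structure SR (m : ℕ) [NeZero m] where
  two_le : 2 ≤ m
  rel : DihedralGroup m → DihedralGroup m → Prop
  eqv : Equivalence rel
  one_class : ∀ {h}, rel 1 h → h = 1
  rel_inv : ∀ {a b}, rel a b → rel a⁻¹ b⁻¹
  closed : ∀ {f g : DihedralGroup m → ℤ}, (∀ a b, rel a b → f a = f b) →
    (∀ a b, rel a b → g a = g b) → ∀ a b, rel a b → conv f g a = conv f g b
  prim : ∀ X : Subgroup (DihedralGroup m), (∀ a b, rel a b → a ∈ X → b ∈ X) → X = ⊥ ∨ X = ⊤

namespace SR

variable (S : SR m)

/-- Constant on classes. -/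
def Inv (f : DihedralGroup m → ℤ) : Prop := ∀ a b, S.rel a b → f a = f b

/-- The indicator of a class. -/
noncomputable def ind (a : DihedralGroup m) (b : DihedralGroup m) : ℤ := by
  classical exact if S.rel a b then 1 else 0

theorem ind_of {a b : DihedralGroup m} (h : S.rel a b) : S.ind a b = 1 := by simp [ind, h]

theorem ind_of_not {a b : DihedralGroup m} (h : ¬ S.rel a b) : S.ind a b = 0 := by simp [ind, h]

theorem ind_self (a : DihedralGroup m) : S.ind a a = 1 := S.ind_of (S.eqv.refl a)

theorem ind_nonneg (a b : DihedralGroup m) : 0 ≤ S.ind a b := by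
  rw [ind]; split <;> norm_num

theorem rel_of_ind {a b : DihedralGroup m} (h : S.ind a b ≠ 0) : S.rel a b := by
  by_contra h'; exact h (S.ind_of_not h')

theorem inv_ind (a : DihedralGroup m) : S.Inv (S.ind a) := fun b c h => by
  by_cases hb : S.rel a b
  · rw [S.ind_of hb, S.ind_of (S.eqv.trans hb h)]
  · rw [S.ind_of_not hb, S.ind_of_not fun hc => hb (S.eqv.trans hc (S.eqv.symm h))]

/-- The subgroup generated by a union of classes is a union of classes. -/
theorem closure_union {X : Set (DihedralGroup m)} (hX : ∀ a b, S.rel a b → a ∈ X → b ∈ X) :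
    ∀ a b, S.rel a b → a ∈ Subgroup.closure X → b ∈ Subgroup.closure X := by
  suffices h : ∀ a ∈ Subgroup.closure X, ∀ b, S.rel a b → b ∈ Subgroup.closure X from
    fun a b hab ha => h a ha b hab
  intro a ha
  induction ha using Subgroup.closure_induction with
  | mem x hx => exact fun b hb => Subgroup.subset_closure (hX x b hb hx)
  | one => exact fun b hb => by rw [S.one_class hb]; exact one_mem _
  | mul x y _ _ ihx ihy =>
    intro b hb
    have hpos : 0 < conv (S.ind x) (S.ind y) (x * y) := by
      refine Finset.sum_pos' (fun i _ => mul_nonneg (S.ind_nonneg _ _) (S.ind_nonneg _ _))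
        ⟨x, mem_univ _, ?_⟩
      simp [S.ind_self]
    rw [S.closed (S.inv_ind x) (S.inv_ind y) _ _ hb] at hpos
    obtain ⟨u, -, hu⟩ := Finset.exists_ne_zero_of_sum_ne_zero hpos.ne'
    have h1 := ihx u (S.rel_of_ind (left_ne_zero_of_mul hu))
    have h2 := ihy _ (S.rel_of_ind (right_ne_zero_of_mul hu))
    simpa using mul_mem h1 h2
  | inv x _ ihx =>
    intro b hb
    have h2 := S.rel_inv hb
    rw [inv_inv] at h2
    simpa using inv_mem (ihx _ h2)

/-- The rotations. -/
def rot (m : ℕ) : Subgroup (DihedralGroup m) where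
  carrier := Set.range DihedralGroup.r
  mul_mem' := by rintro _ _ ⟨a, rfl⟩ ⟨b, rfl⟩; exact ⟨a + b, rfl⟩
  one_mem' := ⟨0, rfl⟩
  inv_mem' := by rintro _ ⟨a, rfl⟩; exact ⟨-a, (DihedralGroup.inv_r a).symm⟩

theorem not_sr_mem_rot (i : ZMod m) : sr i ∉ rot m := by rintro ⟨a, ha⟩; cases ha

/-- An invariant function supported on the rotations is supported at the identity. -/
theorem supp_rot {f : DihedralGroup m → ℤ} (hf : S.Inv f) (h0 : ∀ i, f (sr i) = 0)
    {h : DihedralGroup m} (hh : f h ≠ 0) : h = 1 := by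
  have hX : ∀ a b, S.rel a b → a ∈ {x | f x ≠ 0} → b ∈ {x | f x ≠ 0} := fun a b hab ha => by
    simpa [← hf a b hab] using ha
  rcases S.prim _ (S.closure_union hX) with e | e
  · have : h ∈ Subgroup.closure {x | f x ≠ 0} := Subgroup.subset_closure hh
    rwa [e, Subgroup.mem_bot] at this
  · exfalso
    have hle : Subgroup.closure {x | f x ≠ 0} ≤ rot m := by
      rw [Subgroup.closure_le]
      rintro (i | i) hi
      · exact ⟨i, rfl⟩
      · exact absurd (h0 i) hi
    exact not_sr_mem_rot (0 : ZMod m) (hle (by rw [e]; exact Subgroup.mem_top _))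

theorem inv_comp_inv {f : DihedralGroup m → ℤ} (hf : S.Inv f) : S.Inv fun h => f h⁻¹ :=
  fun _ _ hab => hf _ _ (S.rel_inv hab)

/-- Invariant functions are symmetric. -/
theorem symm_fun {f : DihedralGroup m → ℤ} (hf : S.Inv f) (h : DihedralGroup m) : f h⁻¹ = f h := by
  by_contra hne
  have hd : S.Inv fun x => f x - f x⁻¹ := fun a b hab => by
    simp only [hf a b hab, S.inv_comp_inv hf a b hab]
  have := S.supp_rot hd (fun i => by simp) (h := h) (fun e => hne (sub_eq_zero.1 e).symm)
  subst this; simp at hne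

theorem rel_self_inv (h : DihedralGroup m) : S.rel h h⁻¹ :=
  S.rel_of_ind (by rw [S.symm_fun (S.inv_ind h), S.ind_self]; norm_num)

theorem one_rel_iff {h : DihedralGroup m} : S.rel h 1 ↔ h = 1 :=
  ⟨fun e => S.one_class (S.eqv.symm e), fun e => e ▸ S.eqv.refl _⟩

theorem conv_rot_zero {f g : DihedralGroup m → ℤ} (hf : ∀ i, f (r i) = 0) (hg : ∀ i, g (r i) = 0)
    (i : ZMod m) : conv f g (sr i) = 0 := by
  refine Finset.sum_eq_zero fun x _ => ?_
  rcases x with j | j
  · simp [hf]
  · simp [hg]

/-- Every class contains a rotation. -/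
theorem exists_rot (h : DihedralGroup m) : ∃ i, S.rel h (r i) := by
  rcases h with i | i
  · exact ⟨i, S.eqv.refl _⟩
  by_contra hno
  push_neg at hno
  have h0 : ∀ j, S.ind (sr i) (r j) = 0 := fun j => S.ind_of_not (hno j)
  have hconv : ∀ a b, S.rel (sr i) a → S.rel (sr i) b → a = b := by
    intro a b ha hb
    have hpos : conv (S.ind (sr i)) (S.ind (sr i)) (a * b) ≠ 0 := by
      refine (Finset.sum_pos' (fun x _ => mul_nonneg (S.ind_nonneg _ _) (S.ind_nonneg _ _))
        ⟨a, mem_univ _, ?_⟩).ne'
      simp [S.ind_of ha, S.ind_of hb]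
    have h1 := S.supp_rot (S.closed (S.inv_ind _) (S.inv_ind _))
      (fun j => conv_rot_zero h0 h0 j) hpos
    rcases b with j | j
    · exact absurd hb (hno j)
    · exact (mul_eq_one_iff_eq_inv.1 h1).trans (DihedralGroup.inv_sr j)
  let H : Subgroup (DihedralGroup m) := Subgroup.zpowers (sr i)
  have hH : ∀ a b, S.rel a b → a ∈ ({sr i} : Set (DihedralGroup m)) → b ∈ ({sr i} : Set _) := by
    intro a b hab ha
    rw [Set.mem_singleton_iff] at ha ⊢
    subst ha
    exact (hconv _ _ (S.eqv.refl _) hab).symm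
  rcases S.prim _ (S.closure_union hH) with e | e
  · have : (sr i : DihedralGroup m) ∈ Subgroup.closure {sr i} :=
      Subgroup.subset_closure (Set.mem_singleton _)
    rw [e, Subgroup.mem_bot] at this
    cases this
  · have hc : Nat.card (Subgroup.closure ({sr i} : Set (DihedralGroup m))) = 2 := by
      rw [← Subgroup.zpowers_eq_closure, Nat.card_zpowers, DihedralGroup.orderOf_sr]
    rw [e, Subgroup.card_top, DihedralGroup.nat_card] at hc
    have := S.two_le
    omega

end SR

/-! ## The matrix model -/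

/-- Two by two matrices over the group ring. -/
abbrev M2 (m : ℕ) := Matrix (Fin 2) (Fin 2) (GR m)

/-- The regular model of a group element. -/
noncomputable def rho : DihedralGroup m → M2 m
  | r i => !![AddMonoidAlgebra.single i 1, 0; 0, AddMonoidAlgebra.single (-i) 1]
  | sr i => !![0, AddMonoidAlgebra.single (-i) 1; AddMonoidAlgebra.single i 1, 0]

theorem rho_one : rho (1 : DihedralGroup m) = 1 := by
  rw [DihedralGroup.one_def, rho, neg_zero, ← AddMonoidAlgebra.one_def]
  exact Matrix.one_fin_two.symm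

theorem rho_mul (a b : DihedralGroup m) : rho (a * b) = rho a * rho b := by
  rcases a with i | i <;> rcases b with j | j <;>
    simp [rho, AddMonoidAlgebra.single_mul_single, add_comm, sub_eq_add_neg, neg_add_rev]

/-- The matrix of a function. -/
noncomputable def mat (f : DihedralGroup m → ℤ) : M2 m := ∑ h, f h • rho h

theorem mat_mul (f g : DihedralGroup m → ℤ) : mat f * mat g = mat (conv f g) := by
  simp only [mat, Finset.sum_mul_sum, conv, Finset.sum_smul, smul_mul_smul_comm, ← rho_mul]
  conv_rhs => rw [Finset.sum_comm]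
  exact Finset.sum_congr rfl fun x _ =>
    Fintype.sum_equiv (Equiv.mulLeft x) _ _ fun y => by simp

theorem mat_entry (f : DihedralGroup m → ℤ) :
    mat f = !![ofFun fun i => f (r i), sg (ofFun fun i => f (sr i));
      ofFun fun i => f (sr i), sg (ofFun fun i => f (r i))] := by
  classical
  have hsplit : ∀ F : DihedralGroup m → M2 m,
      ∑ h, F h = (∑ i, F (r i)) + ∑ i, F (sr i) := fun F => by
    refine (Fintype.sum_equiv
      { toFun := fun h => match h with
          | r i => Sum.inl i
          | sr i => Sum.inr i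
        invFun := Sum.elim r sr
        left_inv := by rintro (i | i) <;> rfl
        right_inv := by rintro (i | i) <;> rfl } _ (Sum.elim (fun i => F (r i)) fun i => F (sr i))
      (by rintro (i | i) <;> rfl)).trans (Fintype.sum_sum_type _)
  have hof : ∀ F : ZMod m → ℤ, ofFun F = ∑ i, AddMonoidAlgebra.single i (F i) := fun F => by
    conv_lhs => rw [gr_eq_sum (ofFun F)]
    simp
  rw [mat, hsplit]
  ext a b
  fin_cases a <;> fin_cases b <;>
    simp [rho, Matrix.add_apply, Matrix.sum_apply, hof, map_sum, pw_single,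
      AddMonoidAlgebra.smul_single]

namespace SR

variable (S : SR m)

/-- The symmetric commutative algebra of invariant matrices. -/
noncomputable def alg : Subring (M2 m) where
  carrier := {M | ∃ f, S.Inv f ∧ mat f = M}
  mul_mem' := by
    rintro _ _ ⟨f, hf, rfl⟩ ⟨g, hg, rfl⟩
    exact ⟨conv f g, S.closed hf hg, (mat_mul f g).symm⟩
  one_mem' := by
    classical
    refine ⟨fun h => if h = 1 then 1 else 0, fun a b hab => ?_, ?_⟩
    · by_cases ha : a = 1
      · subst ha; simp [S.one_class hab]
      · have hb : b ≠ 1 := fun e => ha (S.one_rel_iff.1 (e ▸ hab))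
        simp [ha, hb]
    · simp [mat, ite_smul, rho_one]
  add_mem' := by
    rintro _ _ ⟨f, hf, rfl⟩ ⟨g, hg, rfl⟩
    exact ⟨f + g, fun a b h => by simp [hf a b h, hg a b h],
      by simp [mat, add_smul, Finset.sum_add_distrib]⟩
  zero_mem' := ⟨0, fun _ _ _ => rfl, by simp [mat]⟩
  neg_mem' := by
    rintro _ ⟨f, hf, rfl⟩
    exact ⟨-f, fun a b h => by simp [hf a b h], by simp [mat]⟩

theorem conv_comm' {f g : DihedralGroup m → ℤ} (hf : S.Inv f) (hg : S.Inv g) :
    conv f g = conv g f := by
  funext h
  have h1 : conv f g h = conv g f h⁻¹ := by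
    simp only [conv]
    refine Fintype.sum_equiv (Equiv.mulLeft h⁻¹) _ _ fun x => ?_
    have e1 : g (h⁻¹ * x) = g (x⁻¹ * h) := by
      rw [← S.symm_fun hg (h⁻¹ * x)]; simp
    simp only [Equiv.coe_mulLeft, mul_inv_rev, inv_inv, mul_assoc, mul_inv_cancel, mul_one]
    rw [e1, S.symm_fun hf, mul_comm]
  rw [h1, S.symm_fun (S.closed hg hf)]

end SR

end Cfsg.Agent.DihBGroup
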