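import Cfsg.Agent.DihBGroup.RankThree

/-!
A congruence in the group ring of a cyclic 2-group.
-/

set_option autoImplicit false
set_option linter.unusedSectionVars false

namespace Cfsg.Agent.DihBGroup

open Finset

variable {m : ℕ} [NeZero m]

theorem wz_pow_cf (hm : 2 ≤ m) : ∀ n : ℕ, n < m →
    cf ((wz (1 : ZMod m)) ^ n) 0 = 1 ∧ ∀ i : ZMod m, n < i.val → cf ((wz (1 : ZMod m)) ^ n) i = 0 := by
  intro n
  induction n with
  | zero =>
    intro _
    exact ⟨by simp [cf_one], fun i hi => by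
      rw [pow_zero, cf_one, if_neg]; rintro rfl; simp at hi⟩
  | succ n ih =>
    intro hn
    obtain ⟨h0, h1⟩ := ih (by omega)
    refine ⟨?_, fun i hi => ?_⟩
    · rw [pow_succ', cf_wz_mul, h0, h1, sub_zero]
      rw [zero_sub, ZMod.neg_val, if_neg ?_, ZMod.val_one'' (by omega)]
      · omega
      · intro h
        have := congrArg ZMod.val h
        rw [ZMod.val_zero, ZMod.val_one'' (by omega)] at this
        omega
    · rw [pow_succ', cf_wz_mul, h1 i (by omega), h1 (i - 1) ?_, sub_zero]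
      have h2 := ZMod.val_add_le (i - 1) (1 : ZMod m)
      rw [sub_add_cancel, ZMod.val_one'' (by omega)] at h2
      omega

theorem single_one_pow (n : ℕ) :
    (AddMonoidAlgebra.single (1 : ZMod m) (1 : ℤ)) ^ n = AddMonoidAlgebra.single (n : ZMod m) 1 := by
  rw [AddMonoidAlgebra.single_pow, one_pow, nsmul_one]

theorem dvd_wz_one_pow (k : ℕ) :
    (2 : GR m) ∣ (wz (1 : ZMod m)) ^ (2 ^ k) - wz ((2 ^ k : ℕ) : ZMod m) := by
  induction k with
  | zero => simp
  | succ k ih =>
    obtain ⟨q, hq⟩ := ih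
    rw [sub_eq_iff_eq_add] at hq
    rw [pow_succ, pow_mul, hq]
    refine ⟨2 * q * q + 2 * q * wz ((2 ^ k : ℕ) : ZMod m) -
      AddMonoidAlgebra.single ((2 ^ k : ℕ) : ZMod m) 1 + AddMonoidAlgebra.single ((2 ^ k * 2 : ℕ) : ZMod m) 1, ?_⟩
    simp only [wz]
    rw [← single_one_pow, ← single_one_pow, pow_mul]
    ring

theorem cf_intCast_mul (n : ℤ) (A : GR m) (i : ZMod m) : cf ((n : GR m) * A) i = n * cf A i := by
  rw [cf_mul]; simp [cf_intCast, ite_mul]

theorem dvd_sub_eps (c : GR m) : wz (1 : ZMod m) ∣ c - ((eps c : ℤ) : GR m) := by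
  rw [show c - ((eps c : ℤ) : GR m) =
      ∑ i, (AddMonoidAlgebra.single i (cf c i) - ((cf c i : ℤ) : GR m)) by
    rw [Finset.sum_sub_distrib, ← gr_eq_sum, eps_def, Int.cast_sum]]
  refine Finset.dvd_sum fun i _ => ?_
  have h : AddMonoidAlgebra.single i (cf c i) =
      ((cf c i : ℤ) : GR m) * (AddMonoidAlgebra.single (1 : ZMod m) 1) ^ i.val := by
    rw [single_one_pow, ZMod.natCast_zmod_val]
    refine gr_ext fun j => ?_
    rw [cf_intCast_mul, cf_single, cf_single, mul_ite, mul_one, mul_zero]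
  rw [h, ← dvd_neg, neg_sub, ← mul_one ((cf c i : ℤ) : GR m), mul_assoc, ← mul_sub, one_mul]
  refine Dvd.dvd.mul_left ?_ _
  simpa [wz] using sub_dvd_pow_sub_pow (1 : GR m) (AddMonoidAlgebra.single (1 : ZMod m) 1) i.val

theorem eps_wz (z : ZMod m) : eps (wz z) = 0 := by
  rw [wz, map_sub, map_one, eps_def]
  simp [cf_single]

/-- Elements of odd weight are invertible modulo `4`. -/
theorem exists_inv_four {a : ℕ} (hma : m = 2 ^ a) {c : GR m} (hc : Odd (eps c)) :
    ∃ c', (4 : GR m) ∣ c * c' - 1 := by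
  have h1 : ∀ k : ℕ, (2 : GR m) ∣ c ^ (2 ^ k) - pw ((2 : ZMod m) ^ k) c := by
    intro k
    induction k with
    | zero => simp [pw_one]
    | succ k ih =>
      have h2 : (2 : GR m) ∣ (pw ((2 : ZMod m) ^ k) c) ^ 2 - pw ((2 : ZMod m) ^ (k + 1)) c := by
        have := dvd_pow_sub_pw (m := m) Nat.prime_two (pw ((2 : ZMod m) ^ k) c)
        rwa [Nat.cast_ofNat, Nat.cast_ofNat, pw_pw, ← pow_succ'] at this
      have h3 := ih.trans (sub_dvd_pow_sub_pow _ _ 2)
      rw [← pow_mul, ← pow_succ] at h3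
      have := dvd_add h3 h2
      rwa [sub_add_sub_cancel] at this
  have h0 : ((2 : ZMod m) ^ a) = 0 := by
    rw [← Nat.cast_ofNat, ← Nat.cast_pow, ← hma, ZMod.natCast_self]
  have hp0 : pw (0 : ZMod m) c = ((eps c : ℤ) : GR m) := by
    refine gr_ext fun y => ?_
    rw [cf_pw, cf_intCast]
    by_cases hy : y = 0
    · subst hy; simp [eps_def]
    · rw [if_neg hy]
      exact Finset.sum_eq_zero fun i hi => absurd (by simpa using (Finset.mem_filter.1 hi).2.symm) hy
  have h2 := h1 a
  rw [h0, hp0, ← hma] at h2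
  obtain ⟨k, hk⟩ := hc
  rw [hk] at h2
  have h3 : (2 : GR m) ∣ c ^ m - 1 := by
    have := dvd_add h2 (dvd_mul_right (2 : GR m) (k : GR m))
    convert this using 1
    push_cast
    ring
  obtain ⟨q, hq⟩ := h3
  obtain ⟨n, hn⟩ : ∃ n, m = n + 1 := ⟨m - 1, by have := NeZero.pos m; omega⟩
  refine ⟨c ^ (m + n), q * q + q, ?_⟩
  rw [← pow_succ', show m + n + 1 = m * 2 by omega, pow_mul, sub_eq_iff_eq_add.1 hq]
  ring

theorem two_dvd_of_four {x : GR m} (h : (4 : GR m) ∣ 2 * x) : ∀ i, (2 : ℤ) ∣ cf x i := by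
  intro i
  obtain ⟨q, hq⟩ := h
  have := congrArg (fun A => cf A i) hq
  rw [show (4 : GR m) = ((4 : ℕ) : GR m) by norm_num, show (2 : GR m) = ((2 : ℕ) : GR m) by norm_num,
    cf_natCast_mul, cf_natCast_mul] at this
  push_cast at this
  omega

/-- A 0-1 element whose norm is divisible by four off the periodic part is periodic. -/
theorem periodic_of_four {a : ℕ} (hma : m = 2 ^ (a + 1)) {B : GR m} {R : ℤ} (h4 : (4 : ℤ) ∣ R)
    (h01 : ∀ i, cf B i = 0 ∨ cf B i = 1)
    (hB : wz ((2 ^ a : ℕ) : ZMod m) * (sg B * B) = wz ((2 ^ a : ℕ) : ZMod m) * (R : GR m)) :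
    wz ((2 ^ a : ℕ) : ZMod m) * B = 0 := by
  set z : ZMod m := ((2 ^ a : ℕ) : ZMod m) with hz
  set w : GR m := wz z with hw
  set π : GR m := wz (1 : ZMod m) with hπ
  set e : ℕ := 2 ^ a with he
  have hme : m = 2 * e := by rw [hma, pow_succ, mul_comm]
  have he0 : 0 < e := Nat.two_pow_pos a
  have hww : w * w = 2 * w := by
    have h1 : (AddMonoidAlgebra.single z (1 : ℤ) : GR m) * AddMonoidAlgebra.single z 1 = 1 := by
      rw [AddMonoidAlgebra.single_mul_single, one_mul, hz, ← Nat.cast_add, ← two_mul, ← hme,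
        ZMod.natCast_self, AddMonoidAlgebra.one_def]
    rw [hw, wz]
    linear_combination h1
  obtain ⟨h', hh'⟩ := dvd_wz_one_pow (m := m) a
  rw [← hz, ← hw, ← hπ, ← he] at hh'
  set h : GR m := 1 + h' with hh
  have hwe : w * π ^ e = 2 * (w * h) := by
    rw [hh]; linear_combination w * hh' + hww
  have heh : eps h = 1 := by
    have h2 := congrArg eps hh'
    rw [map_sub, map_pow, hπ, hw, eps_wz, eps_wz, zero_pow he0.ne', sub_zero, map_mul,
      map_ofNat] at h2
    rw [hh, map_add, map_one]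
    omega
  obtain ⟨hinv, hhinv⟩ := exists_inv_four hma (c := h) (by rw [heh]; exact odd_one)
  set u0 : GR m := -AddMonoidAlgebra.single (-1 : ZMod m) 1 with hu0
  have hsπ : sg π = u0 * π := by
    have h1 : (AddMonoidAlgebra.single (-1 : ZMod m) (1 : ℤ) : GR m) *
        AddMonoidAlgebra.single 1 1 = 1 := by
      rw [AddMonoidAlgebra.single_mul_single, one_mul, neg_add_cancel, AddMonoidAlgebra.one_def]
    rw [hπ, wz, map_sub, map_one, pw_single, mul_one, hu0]
    linear_combination -h1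
  have h4R : (4 : GR m) ∣ w * (sg B * B) := by
    rw [hB]
    obtain ⟨q, rfl⟩ := h4
    exact ⟨w * (q : GR m), by push_cast; ring⟩
  have hdesc : ∀ v, v ≤ e → ∃ c f, B = π ^ v * c + 2 * f := by
    intro v
    induction v with
    | zero => exact fun _ => ⟨B, 0, by simp⟩
    | succ v ih =>
      intro hv
      obtain ⟨c, f, hBe⟩ := ih (by omega)
      rcases Int.even_or_odd (eps c) with ⟨k, hk⟩ | hodd
      · obtain ⟨c', hc'⟩ := dvd_sub_eps c
        rw [hk, ← hπ, sub_eq_iff_eq_add] at hc'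
        refine ⟨c', f + π ^ v * (k : GR m), ?_⟩
        rw [hBe, hc']
        push_cast
        ring
      exfalso
      obtain ⟨t, ht⟩ : ∃ t, e = v + 1 + t := ⟨e - (v + 1), by omega⟩
      set U : GR m := u0 ^ v * sg c * c with hU
      have hUodd : Odd (eps U) := by
        have hu : eps u0 = -1 := by rw [hu0, map_neg, eps_def]; simp [cf_single]
        rw [hU, map_mul, map_mul, map_pow, eps_pw, hu]
        exact ((odd_one.neg.pow).mul hodd).mul hodd
      obtain ⟨Ui, hUi⟩ := exists_inv_four hma hUodd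
      set g : GR m := c * sg f + u0 ^ v * sg c * f with hg
      have hexp : w * (sg B * B) * π ^ (2 * t + 1) =
          w * π ^ (e + e - 1) * U + 4 * (w * h * π ^ t * g) + 4 * (w * π ^ (2 * t + 1) * (sg f * f)) := by
        have e1 : π ^ (e + e - 1) = π ^ v * π ^ v * π ^ (2 * t + 1) := by
          rw [← pow_add, ← pow_add]; congr 1; omega
        have e2 : π ^ v * π ^ (2 * t + 1) = π ^ e * π ^ t := by
          rw [← pow_add, ← pow_add]; congr 1; omega
        rw [e1, hBe, map_add, map_mul, map_mul, map_pow, map_ofNat, hsπ, mul_pow, hU, hg]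
        linear_combination (2 * w * (c * sg f + u0 ^ v * sg c * f)) * e2 +
          (2 * π ^ t * (c * sg f + u0 ^ v * sg c * f)) * hwe
      have hA : (4 : GR m) ∣ w * π ^ (e + e - 1) * U := by
        have h5 : (4 : GR m) ∣ w * (sg B * B) * π ^ (2 * t + 1) := h4R.mul_right _
        rw [hexp, add_assoc, dvd_add_left (dvd_add (dvd_mul_right _ _) (dvd_mul_right _ _))] at h5
        exact h5
      have hA' : (4 : GR m) ∣ w * π ^ (e + e - 1) := by
        have := dvd_sub (hA.mul_right Ui) (hUi.mul_left (w * π ^ (e + e - 1)))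
        convert this using 1
        ring
      have hB2 : (4 : GR m) ∣ 2 * (w * π ^ (e - 1)) := by
        have e3 : π ^ (e + e - 1) = π ^ e * π ^ (e - 1) := by
          rw [← pow_add]; congr 1; omega
        rw [e3, ← mul_assoc, hwe] at hA'
        have := dvd_sub (hA'.mul_right hinv) (hhinv.mul_left (2 * (w * π ^ (e - 1))))
        convert this using 1
        ring
      have h0 := two_dvd_of_four hB2 0
      obtain ⟨c0, c1⟩ := wz_pow_cf (m := m) (by omega) (e - 1) (by omega)
      rw [hw, cf_wz_mul, hπ, c0, c1 _ (by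
        rw [zero_sub, ZMod.neg_val]
        have hzv : z.val = e := by rw [hz, ZMod.val_natCast]; exact Nat.mod_eq_of_lt (by omega)
        rw [if_neg (fun h => by rw [h, ZMod.val_zero] at hzv; omega), hzv]
        omega)] at h0
      omega
  obtain ⟨c, f, hBe⟩ := hdesc e le_rfl
  refine gr_ext fun i => ?_
  have hwB : w * B = 2 * (w * h * c + w * f) := by rw [hBe]; linear_combination c * hwe
  have h1 := congrArg (fun A => cf A i) hwB
  rw [show (2 : GR m) = ((2 : ℕ) : GR m) by norm_num, cf_natCast_mul, hw, cf_wz_mul] at h1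
  rw [cf_zero, hw, cf_wz_mul]
  push_cast at h1
  rcases h01 i with a0 | a0 <;> rcases h01 (i - z) with b0 | b0 <;> rw [a0, b0] at h1 ⊢ <;> omega

end Cfsg.Agent.DihBGroup
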